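import Mathlib
import Cfsg.Agent.Lib.Deg.FS4

/-!
A parity lemma for symplectic characters and linear characters inverted by an element.
-/

set_option autoImplicit false

namespace H87

open Cfsg H6 Matrix
open scoped ComplexConjugate

set_option linter.unusedSectionVars false

variable {G : Type*} [Group G] [Fintype G] {ι : Type*} [Fintype ι] [DecidableEq ι]

theorem even_trace_of_idem' {E M : Matrix ι ι ℂ} (hE : E * E = E) (hM : IsUnit M)
    (hs : Mᵀ * E = -(M * E)) (hEM : Eᵀ * M = M * E) : ∃ k : ℕ, E.trace = 2 * k := by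
  let f := Matrix.toLin' E
  let r := Module.finrank ℂ (LinearMap.range f)
  let e : LinearMap.range f ≃ₗ[ℂ] (Fin r → ℂ) := (Module.finBasis ℂ _).equivFun
  let X : Matrix ι (Fin r) ℂ := LinearMap.toMatrix' ((LinearMap.range f).subtype ∘ₗ e.symm.toLinearMap)
  let Y : Matrix (Fin r) ι ℂ := LinearMap.toMatrix' (e.toLinearMap ∘ₗ f.rangeRestrict)
  have hXY : X * Y = E := by
    rw [← LinearMap.toMatrix'_comp]
    apply Matrix.toLin'.injective
    rw [Matrix.toLin'_toMatrix']
    ext1 i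
    ext1
    simp [f]
  have hYX : Y * X = 1 := by
    rw [← LinearMap.toMatrix'_comp, ← LinearMap.toMatrix'_id]
    congr 1
    refine LinearMap.ext fun v => ?_
    have : f.rangeRestrict ((e.symm v : LinearMap.range f) : ι → ℂ) = e.symm v := by
      apply Subtype.ext
      obtain ⟨w, hw⟩ := (e.symm v).2
      rw [LinearMap.rangeRestrict, LinearMap.codRestrict_apply, ← hw, ← LinearMap.comp_apply,
        ← Matrix.toLin'_mul, hE]
    simp [this]
  have hMd := (Matrix.isUnit_iff_isUnit_det M).1 hM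
  have hEX : E * X = X := by rw [← hXY, Matrix.mul_assoc, hYX, Matrix.mul_one]
  have h1 : Xᵀ * M * X * (Y * M⁻¹ * Yᵀ) = 1 := by
    calc Xᵀ * M * X * (Y * M⁻¹ * Yᵀ) = Xᵀ * (M * (X * Y)) * M⁻¹ * Yᵀ := by
          simp only [Matrix.mul_assoc]
      _ = (E * X)ᵀ * (M * M⁻¹) * Yᵀ := by
          rw [hXY, ← hEM, transpose_mul]; simp only [Matrix.mul_assoc]
      _ = 1 := by
          rw [hEX, Matrix.mul_nonsing_inv _ hMd, Matrix.mul_one, ← transpose_mul, hYX,
            transpose_one]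
  have h2 : (Xᵀ * M * X)ᵀ = (-1 : ℂ) • (Xᵀ * M * X) := by
    calc (Xᵀ * M * X)ᵀ = Xᵀ * (Mᵀ * E) * X := by
          rw [transpose_mul, transpose_mul, transpose_transpose, Matrix.mul_assoc,
            Matrix.mul_assoc, hEX]
      _ = _ := by
          rw [hs, Matrix.mul_neg, Matrix.neg_mul, Matrix.mul_assoc, Matrix.mul_assoc, hEX,
            Matrix.mul_assoc]
          simp
  have h3 : (Xᵀ * M * X).det ≠ 0 := (Matrix.isUnit_det_of_right_inverse h1).ne_zero
  have hr : Even r := by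
    by_contra hodd
    rw [Nat.not_even_iff_odd] at hodd
    have := congrArg Matrix.det h2
    rw [det_transpose, det_smul, Fintype.card_fin, hodd.neg_one_pow] at this
    apply h3
    linear_combination (1 / 2 : ℂ) * this
  obtain ⟨k, hk⟩ := hr
  refine ⟨k, ?_⟩
  rw [← hXY, trace_mul_comm, hYX, trace_one, Fintype.card_fin, hk]; push_cast; ring

/-- A linear character `θ` of a subgroup inverted by `s` with `θ (s ^ 2) = 1` occurs with even
multiplicity in characters of indicator `-1`. -/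
theorem even_inner_of_inverting {H : Type*} [Group H] [Fintype H] (f : H →* G) (θ : H →* ℂˣ)
    (s : G) (σ : H ≃ H) (hσ : ∀ h, s * f h = f (σ h) * s) (hθ : ∀ h, θ (σ h) = (θ h)⁻¹)
    {h0 : H} (h1 : s * s = f h0) (h2 : θ h0 = 1) {χ : G → ℂ} (hχ : IsIrrCharacter G χ)
    (hnu : nu χ = -1) : ∃ k : ℕ, classInner (fun x => χ (f x)) (fun x => (θ x : ℂ)) = 2 * k := by
  obtain ⟨n, Φ, M, e1, hM, hMu, hMs⟩ := exists_form_of_nu_ne_zero hχ (by rw [hnu]; norm_num)
  rw [hnu, neg_smul, one_smul] at hMs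
  have hc : (Nat.card H : ℂ) ≠ 0 := card_ne_zero
  set A : Matrix (Fin n) (Fin n) ℂ := ∑ x, ((θ x)⁻¹ : ℂˣ) • Φ (f x) with hA
  have hmul : ∀ g, Φ (f g) * A = θ g • A := fun g => by
    rw [hA, Finset.mul_sum, Finset.smul_sum]
    refine Fintype.sum_equiv (Equiv.mulLeft g) _ _ fun x => ?_
    simp only [Equiv.coe_mulLeft, map_mul, Matrix.mul_smul, smul_smul, _root_.mul_inv_rev]
    congr 1
    rw [mul_comm (θ x)⁻¹, mul_inv_cancel_left]
  have hsu : IsUnit (Φ s) := ⟨⟨Φ s, Φ s⁻¹, hom_mul_inv Φ s, hom_inv_mul Φ s⟩, rfl⟩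
  obtain ⟨k, hk⟩ := even_trace_of_idem' (E := (Nat.card H : ℂ)⁻¹ • A) (M := M * Φ s) (by
    rw [Matrix.smul_mul, Matrix.mul_smul]
    nth_rewrite 1 [hA]
    rw [Finset.sum_mul]
    simp only [Matrix.smul_mul, hmul, smul_smul, inv_mul_cancel, one_smul, Finset.sum_const,
      Finset.card_univ, ← Nat.card_eq_fintype_card]
    rw [← Nat.cast_smul_eq_nsmul ℂ, smul_smul, mul_assoc, inv_mul_cancel₀ hc, mul_one])
    (hMu.mul hsu) (by
    have e : (Φ s)ᵀ * M = M * Φ s⁻¹ := by rw [hM.mul_eq, inv_inv]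
    have e2 : Φ s⁻¹ * A = Φ s * A := by
      have : s = s⁻¹ * f h0 := by rw [← h1, inv_mul_cancel_left]
      nth_rewrite 2 [this]
      rw [map_mul, Matrix.mul_assoc, hmul, h2, one_smul]
    rw [transpose_mul, hMs, Matrix.mul_neg, e, Matrix.neg_mul, Matrix.mul_smul, Matrix.mul_smul,
      Matrix.mul_assoc, Matrix.mul_assoc, e2]) (by
    rw [transpose_smul, Matrix.smul_mul, Matrix.mul_smul, hA, transpose_sum, Finset.sum_mul,
      Finset.mul_sum]
    congr 1
    symm
    refine Fintype.sum_equiv (σ.trans (Equiv.inv H)) _ _ fun x => ?_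
    simp only [Equiv.trans_apply, Equiv.inv_apply, map_inv, transpose_smul, Matrix.smul_mul,
      Matrix.mul_smul, hθ, inv_inv]
    congr 1
    rw [← Matrix.mul_assoc, ← hM.mul_eq, Matrix.mul_assoc, Matrix.mul_assoc, ← map_mul, ← map_mul,
      hσ])
  refine ⟨k, ?_⟩
  rw [← hk, classInner_def, trace_smul, hA, trace_sum, smul_eq_mul, e1]
  congr 1
  refine Finset.sum_congr rfl fun x _ => ?_
  rw [conj_hom, trace_smul, mul_comm]
  rfl

theorem inner_conj_of_inverting {H : Type*} [Group H] [Fintype H] (f : H →* G) (θ : H →* ℂˣ)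
    (s : G) (σ : H ≃ H) (hσ : ∀ h, s * f h = f (σ h) * s) (hθ : ∀ h, θ (σ h) = (θ h)⁻¹)
    {χ : G → ℂ} (hχ : IsCharacter G χ) :
    classInner (fun x => conj (χ (f x))) (fun x => (θ x : ℂ)) =
      classInner (fun x => χ (f x)) (fun x => (θ x : ℂ)) := by
  rw [char_inner_comm (isCharacter_comp f hχ) (isCharacter_hom θ), ← classInner_conj_conj,
    ← classInner_comp_equiv σ]
  congr 1
  · funext x
    rw [conj_hom, MonoidHom.inv_apply, hθ, inv_inv]
  · funext x
    rw [← mul_inv_eq_iff_eq_mul.2 (hσ x), char_isClassFunction hχ, Complex.conj_conj]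

end H87
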