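import Mathlib
import Cfsg.Agent.Lib.Deg.FewDeg2
import Cfsg.Agent.Lib.Char.ExtDeg

/-!
Groups with exactly two character degrees.
-/

set_option autoImplicit false

namespace H87

open Cfsg H6
open scoped ComplexConjugate commutatorElement Pointwise

set_option linter.unusedSectionVars false

variable {G : Type*} [Group G] [Finite G]

theorem centralizer_le_inertia {N : Subgroup G} [N.Normal] (θ : N → ℂ) :
    Subgroup.centralizer (N : Set G) ≤ H7.inertia θ := fun g hg => H7.mem_inertia'.2 fun n =>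
  congrArg θ (Subtype.ext (show g * n * g⁻¹ = n by rw [← hg n n.2, mul_inv_cancel_right]))

/-- An element fixing all irreducible characters of an abelian normal subgroup centralizes it. -/
theorem mem_centralizer_of_forall_inertia {N : Subgroup G} [N.Normal]
    (hc : ∀ a ∈ N, ∀ b ∈ N, a * b = b * a) {g : G}
    (h : ∀ θ, IsIrrCharacter N θ → g ∈ H7.inertia θ) : g ∈ Subgroup.centralizer (N : Set G) := by
  intro n hn
  obtain ⟨m, hm⟩ := isConj_iff.1 ((isConj_iff_irr (⟨n, hn⟩ : N) _).2 fun θ =>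
    (H7.mem_inertia'.1 (h _ θ.2) ⟨n, hn⟩).symm)
  have hm' : (m : G) * n * (m : G)⁻¹ = g * n * g⁻¹ := congrArg Subtype.val hm
  rw [hc m m.2 n hn, mul_inv_cancel_right] at hm'
  exact (mul_inv_eq_iff_eq_mul.1 hm'.symm).symm

theorem exists_normal_centralizer_le {p k : ℕ} [Fact p.Prime] {A : Subgroup G} [A.Normal]
    (h : A.index ∣ p ^ k) (hc : ∀ a ∈ A, ∀ b ∈ A, a * b = b * a) :
    ∃ Q : Subgroup G, Q.Normal ∧ IsPGroup p Q ∧ Subgroup.centralizer (A : Set G) ≤ A ⊔ Q := by
  set D := Subgroup.centralizer (A : Set G)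
  obtain ⟨P⟩ : Nonempty (Sylow p D) := inferInstance
  have h1 := sup_sylow_eq_top ((Subgroup.relIndex_dvd_index_of_normal A D).trans h) P
  have h2 := normal_of_sup_eq_top (fun a ha => Subgroup.mem_center_iff.2 fun g =>
    Subtype.ext (g.2 a ha).symm) h1
  have := P.characteristic_of_normal h2
  refine ⟨(P : Subgroup D).map D.subtype, inferInstance, P.isPGroup'.map _, ?_⟩
  have := congrArg (Subgroup.map D.subtype) h1
  rw [Subgroup.map_sup, Subgroup.subgroupOf_map_subtype, ← MonoidHom.range_eq_map,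
    Subgroup.range_subtype] at this
  exact this.ge.trans (sup_le_sup_right inf_le_left _)

theorem commutator_le_centralizer_of_cd {p k m : ℕ} [hp : Fact p.Prime] {A : Subgroup G} [A.Normal]
    (h1 : A.index ∣ p ^ k) (h2 : ¬ p ∣ Nat.card A) (hc : ∀ a ∈ A, ∀ b ∈ A, a * b = b * a)
    (h : ∀ χ, IsIrrCharacter G χ → charDegree χ = 1 ∨ charDegree χ = m) :
    commutator G ≤ Subgroup.centralizer (A : Set G) := by
  set D := Subgroup.centralizer (A : Set G)
  by_contra hn
  have hAD : A ≤ D := fun a ha b hb => hc b hb a ha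
  obtain ⟨β, hβ, h3⟩ : ∃ β, IsIrrCharacter (G ⧸ D) β ∧ charDegree β ≠ 1 := by
    by_contra h3
    push Not at h3
    exact hn (Subgroup.commutator_le.2 fun a _ b _ => (QuotientGroup.eq_one_iff _).1
      (commutatorElement_eq_one_iff_mul_comm.2 (comm_of_forall_deg_eq_one h3 (a : G ⧸ D) b)))
  have h4 : charDegree β = m := (h _ (isIrr_infl D hβ)).resolve_left h3
  have : Nontrivial (G ⧸ D) := by
    by_contra h5
    rw [not_nontrivial_iff_subsingleton] at h5
    exact h3 (deg_eq_one_of_comm (fun a b => Subsingleton.elim _ _) hβ)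
  have h5 : IsPGroup p (G ⧸ D) := IsPGroup.of_card_dvd_pow
    ((Subgroup.index_dvd_of_le hAD).trans h1)
  have := h5.center_nontrivial
  obtain ⟨⟨z, hz⟩, hz1⟩ := exists_ne (1 : Subgroup.center (G ⧸ D))
  obtain ⟨z, rfl⟩ := QuotientGroup.mk_surjective z
  refine hz1 (Subtype.ext ((QuotientGroup.eq_one_iff z).2
    (mem_centralizer_of_forall_inertia hc fun θ hθ => ?_)))
  set T := H7.inertia θ
  by_cases hT : T.index = 1
  · exact Subgroup.index_eq_one.1 hT ▸ Subgroup.mem_top z
  have hAT : A ≤ T := hAD.trans (centralizer_le_inertia θ)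
  obtain ⟨ψ, hψ, hext⟩ := H31.extends_le_of_coprime hAT hθ le_rfl
    ((((Nat.Prime.coprime_iff_not_dvd hp.out).2 h2).pow_left k).coprime_dvd_left
      ((Subgroup.relIndex_dvd_index_of_normal A T).trans h1))
  have h6 : ∀ γ, IsIrrCharacter T γ → A.subgroupOf T ≤ charKer γ → T.index * charDegree γ = m :=
    fun γ hγ hk => by
      obtain ⟨χ, hχ, -, e⟩ := exists_over_of_ext hAT hθ le_rfl hψ hext hγ hk
      rw [deg_eq_one_of_comm (fun a b => Subtype.ext (hc a a.2 b b.2)) hθ, mul_one] at e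
      exact e.symm.trans ((h χ hχ).resolve_left fun e' =>
        hT (Nat.eq_one_of_mul_eq_one_right (e.symm.trans e')))
  have h7 := h6 _ isIrrCharacter_one (by rw [(charKer_eq_top_iff isIrrCharacter_one).2 rfl]; simp)
  rw [deg_one, mul_one] at h7
  have h8 := commutator_le_of_forall_deg fun γ hγ hk =>
    (Nat.mul_eq_left Subgroup.index_ne_zero_of_finite).1 ((h6 γ hγ hk).trans h7.symm)
  obtain ⟨t, ht, e⟩ := mem_of_comm_of_index_le_deg hβ (A := T.map (QuotientGroup.mk' D)) (by
      rintro _ ⟨a, ha, rfl⟩ _ ⟨b, hb, rfl⟩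
      exact commutatorElement_eq_one_iff_mul_comm.1 ((QuotientGroup.eq_one_iff _).2 (hAD (h8
        (Subgroup.commutator_mem_commutator (Subgroup.mem_top ⟨a, ha⟩)
          (Subgroup.mem_top ⟨b, hb⟩))))))
    (h4 ▸ h7 ▸ Nat.le_of_dvd (Nat.pos_of_ne_zero Subgroup.index_ne_zero_of_finite)
      (Subgroup.index_map_dvd _ (QuotientGroup.mk'_surjective _)))
    fun a _ => Subgroup.mem_center_iff.1 hz a
  simpa using mul_mem ht (centralizer_le_inertia θ (QuotientGroup.eq.1 e))

theorem cases_of_cd {m : ℕ} (h : ∀ χ, IsIrrCharacter G χ → charDegree χ = 1 ∨ charDegree χ = m)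
    (hc : ¬ commutator G ≤ ⊥) :
    (∃ A : Subgroup G, A.Normal ∧ (∀ a ∈ A, ∀ b ∈ A, a * b = b * a) ∧ A.index = m) ∨
      ∃ (K : Subgroup G) (p : ℕ) (Z : Subgroup G) (τ : G → ℂ), MaxNA K ∧ CaseA K p Z τ ∧
        pResidual p G ≤ Subgroup.center G := by
  have := isSolvable_of_ncard_le ((ncard_le_two_of_cd h).trans (by omega : 2 ≤ 3))
  obtain ⟨K, hK, -⟩ := exists_maxNA inferInstance hc
  have := hK.normal
  rcases hK.cases_of_isSolvable with ⟨p, Z, τ, hA⟩ | ⟨p, N, hB⟩
  swap
  · exact Or.inl ⟨N, hB.normal, (hB.comm_of_cd h).2, (hB.comm_of_cd h).1⟩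
  by_cases h0 : pResidual p G ≤ Subgroup.center G
  · exact Or.inr ⟨K, p, Z, τ, hK, hA, h0⟩
  have := Fact.mk hA.prime
  obtain ⟨⟨e, he⟩, h1, h2⟩ := hA.of_cd h
  have := H4.pResidual_normal p G
  obtain ⟨k, hk⟩ := H4.index_pResidual_dvd_pow (G := G) (n := p)
  obtain ⟨Q, hQ, h3, h4⟩ := exists_normal_centralizer_le hk h2
  obtain ⟨L, hL, h5⟩ := exists_maxNA hQ fun h5 => h0 fun a ha => Subgroup.mem_center_iff.2 fun g =>
    commutatorElement_eq_one_iff_mul_comm.1 ((Subgroup.inf_eq_bot_of_coprime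
      (H := pResidual p G) (K := Q) (by
        obtain ⟨j, hj⟩ := IsPGroup.iff_card.1 h3
        exact hj ▸ ((Nat.Prime.coprime_iff_not_dvd hA.prime).2 h1).symm.pow_right j)).le
      ⟨Subgroup.commutator_le_right ⊤ _ (Subgroup.commutator_mem_commutator trivial ha),
        h5 (Subgroup.commutator_mem_commutator trivial trivial)⟩)
  have := hL.normal
  rcases hL.cases_of_isSolvable with ⟨q, Z', τ', hA'⟩ | ⟨p, N, hB⟩
  · obtain ⟨⟨e', he'⟩, -⟩ := hA'.of_cd h
    obtain rfl := (Nat.prime_dvd_prime_iff_eq hA.prime hA'.prime).1 (hA.prime.dvd_of_dvd_pow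
      (he' ▸ he ▸ dvd_pow_self p e.succ_ne_zero))
    exact absurd (((commutator_le_centralizer_of_cd hk h1 h2 h).trans h4).trans
      (sup_le (H4.pResidual_le_of_isPGroup_quotient hA'.isPGroup) h5)) hL.not_le
  · exact Or.inl ⟨N, hB.normal, (hB.comm_of_cd h).2, (hB.comm_of_cd h).1⟩

/-- Covering the complement of a proper subgroup by `p` subgroups of index at least `p`. -/
theorem index_eq_of_cover {X : Type*} [Group X] [Finite X] {p : ℕ} (hp : 1 < p) {K : Subgroup X}
    (hK : K ≠ ⊤) (H : ℕ → Subgroup X) (hH : ∀ i, p ≤ (H i).index)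
    (hc : ∀ x, x ∉ K → ∃ i < p, x ∈ H i) {i : ℕ} (hi : i < p) :
    (H i).index = p ∧ ¬ K ≤ H i := by
  classical
  have := Fintype.ofFinite X
  let s : ℕ → Finset X := fun i => Finset.univ.filter fun x => x ∈ H i ∧ x ∉ K
  let d := (Finset.univ.filter fun x => x ∉ K).card
  have h1 : d ≤ ∑ i ∈ Finset.range p, (s i).card :=
    (Finset.card_le_card fun x hx => by
      have hx' := (Finset.mem_filter.1 hx).2
      simpa [s, hx'] using hc x hx').trans Finset.card_biUnion_le
  have h2 : Nat.card K + d = Nat.card X := by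
    rw [Nat.card_eq_fintype_card, Fintype.card_subtype, Finset.card_filter_add_card_filter_not,
      Nat.card_eq_fintype_card, Finset.card_univ]
  have h3 : ∀ j, Nat.card (H j ⊓ K : Subgroup X) + (s j).card = Nat.card (H j) := fun j => by
    rw [Nat.card_eq_fintype_card, Fintype.card_subtype, Nat.card_eq_fintype_card,
      Fintype.card_subtype, ← Finset.card_filter_add_card_filter_not
        (s := Finset.univ.filter (· ∈ H j)) (· ∈ K), Finset.filter_filter, Finset.filter_filter]
    simp only [Subgroup.mem_inf, s]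
  have h4 : ∀ j, Nat.card (H j) * Nat.card K ≤ Nat.card X * Nat.card (H j ⊓ K : Subgroup X) :=
    fun j => by
      have e1 := (H j).card_mul_index
      have e2 := K.card_mul_index
      have e3 := (H j ⊓ K).card_mul_index
      have e4 := Subgroup.index_inf_le (H := H j) (K := K)
      have : 0 < (H j).index * K.index := Nat.pos_of_ne_zero
        (mul_ne_zero Subgroup.index_ne_zero_of_finite Subgroup.index_ne_zero_of_finite)
      refine Nat.le_of_mul_le_mul_right ?_ this
      calc _ = (Nat.card (H j) * (H j).index) * (Nat.card K * K.index) := by ring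
        _ = Nat.card X * (Nat.card (H j ⊓ K : Subgroup X) * (H j ⊓ K).index) := by rw [e1, e2, e3]
        _ ≤ _ := by rw [mul_assoc]; gcongr
  have h5 : 0 < d := by
    by_contra h5
    exact hK (K.eq_top_of_card_eq (by omega))
  have h6 : ∀ j, Nat.card X * (s j).card ≤ Nat.card (H j) * d := fun j => by
    have := h3 j; have := h4 j; nlinarith
  have h7 : ∀ j, p * Nat.card (H j) ≤ Nat.card X := fun j => by
    rw [← (H j).card_mul_index, mul_comm]; exact Nat.mul_le_mul_left _ (hH j)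
  have hX : 0 < Nat.card X := Nat.card_pos
  have h8 : ∀ j, p * (s j).card ≤ d := fun j => Nat.le_of_mul_le_mul_left (by
    have := h6 j; have := h7 j; nlinarith) hX
  have h9 : d ≤ p * (s i).card := by
    by_contra! hlt
    have := Finset.sum_lt_sum (s := Finset.range p) (fun j _ => h8 j)
      ⟨i, Finset.mem_range.2 hi, hlt⟩
    rw [← Finset.mul_sum, Finset.sum_const, Finset.card_range, smul_eq_mul] at this
    exact (Nat.lt_of_mul_lt_mul_left this).not_ge h1
  refine ⟨le_antisymm (Nat.le_of_mul_le_mul_left (c := Nat.card (H i)) ?_ Nat.card_pos)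
    (hH i), fun hle => ?_⟩
  · rw [(H i).card_mul_index]
    exact Nat.le_of_mul_le_mul_right (by have := h6 i; nlinarith) h5
  · have := h3 i
    rw [inf_eq_right.2 hle] at this
    have := h7 i
    have : 0 < Nat.card K := Nat.card_pos
    nlinarith

theorem index_eq_of_lt_of_sq {p : ℕ} (hp : p.Prime) {Z T : Subgroup G} (hZ : Z.index = p ^ 2)
    (h1 : Z < T) (h2 : T ≠ ⊤) : T.index = p := by
  obtain ⟨j, hj, e⟩ := (Nat.dvd_prime_pow hp).1 (hZ ▸ Subgroup.index_dvd_of_le h1.le)
  have := index_lt_index_of_lt h1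
  rw [hZ, e, Nat.pow_lt_pow_iff_right hp.one_lt] at this
  obtain rfl | rfl : j = 0 ∨ j = 1 := by omega
  exacts [absurd (Subgroup.index_eq_one.1 e) h2, e.trans (pow_one p)]

theorem finite_hom : Finite (G →* ℂˣ) := by
  have : NeZero ((Monoid.exponent G : ℕ) : ℂ) := ⟨by exact_mod_cast Monoid.exponent_ne_zero_of_finite⟩
  infer_instance

/-- The map `n ↦ ⁅g, n⁆` on an abelian normal subgroup. -/
def commHom (Z : Subgroup G) [hZ : Z.Normal] (hc : ∀ a ∈ Z, ∀ b ∈ Z, a * b = b * a) (g : G) :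
    Z →* Z := MonoidHom.mk'
  (fun n => ⟨g * n * g⁻¹ * (n : G)⁻¹, mul_mem (hZ.conj_mem _ n.2 g) (inv_mem n.2)⟩) fun a b =>
    Subtype.ext (by
      have := hc _ (inv_mem a.2) _ (mul_mem (hZ.conj_mem _ b.2 g) (inv_mem b.2))
      calc g * (a * b) * g⁻¹ * ((a : G) * b)⁻¹ = g * a * g⁻¹ * (g * b * g⁻¹ * (b : G)⁻¹ * (a : G)⁻¹) := by
            group
        _ = g * a * g⁻¹ * (a : G)⁻¹ * (g * b * g⁻¹ * (b : G)⁻¹) := by rw [← this]; group)

/-- The linear characters trivial on a subgroup. -/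
def annih (W : Subgroup G) : Subgroup (G →* ℂˣ) where
  carrier := {lam | ∀ x ∈ W, lam x = 1}
  one_mem' := fun _ _ => rfl
  mul_mem' := fun ha hb x hx => by rw [MonoidHom.mul_apply, ha x hx, hb x hx, one_mul]
  inv_mem' := fun ha x hx => by rw [MonoidHom.inv_apply, ha x hx, inv_one]

theorem index_annih (hc : commutator G ≤ ⊥) (W : Subgroup G) : (annih W).index = Nat.card W := by
  have h1 := (annih W).card_mul_index
  have h2 : Nat.card (annih W) = W.index := card_hom_trivial W (hc.trans bot_le)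
  have h3 : Nat.card (annih (⊥ : Subgroup G)) = _ := card_hom_trivial ⊥ hc
  rw [show annih (⊥ : Subgroup G) = ⊤ from eq_top_iff.2 fun l _ x hx => by
    rw [Subgroup.mem_bot.1 hx, map_one], Subgroup.card_top, Subgroup.index_bot] at h3
  rw [h2, h3, ← W.index_mul_card] at h1
  exact Nat.eq_of_mul_eq_mul_left (Nat.pos_of_ne_zero Subgroup.index_ne_zero_of_finite) h1

theorem CaseA.index_center {K Z : Subgroup G} {p : ℕ} {τ : G → ℂ} (hK : MaxNA K)
    (hA : CaseA K p Z τ) (h0 : pResidual p G ≤ Subgroup.center G)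
    (h : ∀ χ, IsIrrCharacter G χ → charDegree χ = 1 ∨ charDegree χ = p) :
    (∃ A : Subgroup G, A.Normal ∧ (∀ a ∈ A, ∀ b ∈ A, a * b = b * a) ∧ A.index = p) ∨
      (Subgroup.center G).index = p ^ 3 := by
  classical
  refine or_iff_not_imp_left.2 fun hno => ?_
  have hp := hA.prime
  have := Fact.mk hp
  have := hK.normal
  have := hA.normal
  have hτ := (h τ hA.irr).resolve_left hA.ne_one
  have hZ : Z.index = p ^ 2 := hτ ▸ hA.sq.symm
  have hc : ∀ a ∈ Z, ∀ b ∈ Z, a * b = b * a := fun a ha b hb => congrArg Subtype.val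
    (comm_of_forall_deg_eq_one (G := Z) (fun θ hθ => by
      rcases hA.deg_lt (b := p) (fun χ hχ => by
        rcases h χ hχ with e | e; exacts [e ▸ hp.one_le, e.le]) hθ with h1 | ⟨χ, hχ, ho, h1⟩
      · have := deg_pos hθ
        have := hp.pos
        rw [hτ] at h1
        nlinarith
      · have h2 := deg_pos hθ
        rcases h χ hχ with e | e
        · omega
        · exact ((Nat.dvd_prime hp).1 (e ▸ ho.deg_dvd hχ hθ)).resolve_right (by omega))
      ⟨a, ha⟩ ⟨b, hb⟩)
  have hZ' : commutator G ≤ Z := Subgroup.commutator_le.2 fun a _ b _ =>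
    (QuotientGroup.eq_one_iff _).1 (commutatorElement_eq_one_iff_mul_comm.2
      ((IsPGroup.commutative_of_card_eq_prime_sq (G := G ⧸ Z) hZ) (a : G ⧸ Z) b))
  have hnorm : ∀ T : Subgroup G, Z ≤ T → T.Normal := fun T hT =>
    Subgroup.Normal.of_commutator_le _ (hZ'.trans hT)
  have hlt : ∀ {T : Subgroup G} {g}, Z ≤ T → g ∈ T → g ∉ Z → Z < T := fun h1 h2 h3 =>
    h1.lt_of_ne fun e => h3 (e ▸ h2)
  obtain ⟨x, hx⟩ : ∃ x, x ∉ Z := by
    by_contra! hx
    rw [Subgroup.index_eq_one.2 ((Subgroup.eq_top_iff' Z).2 hx)] at hZ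
    exact (one_lt_pow₀ hp.one_lt two_ne_zero).ne hZ
  set C := (Subgroup.centralizer {(x : G ⧸ K)}).comap (QuotientGroup.mk' K)
  have hC : ∀ g, g ∈ C ↔ ⁅g, x⁆ ∈ K := fun g => by
    rw [← QuotientGroup.eq_one_iff (N := K), Subgroup.mem_comap, Subgroup.mem_centralizer_singleton_iff,
      ← commutatorElement_eq_one_iff_mul_comm]; rfl
  have hZC : Z ≤ C := fun z hz => (hC z).2 ((hA.mem_iff z).1 hz x)
  have hxC : x ∈ C := (hC x).2 (by simp)
  obtain ⟨y, hy⟩ : ∃ y, y ∉ C := by
    by_contra! hy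
    exact hx ((hA.mem_iff x).2 fun g => by simpa using inv_mem ((hC g).1 (hy g)))
  have hCi := index_eq_of_lt_of_sq hp hZ (hlt hZC hxC hx) fun e => hy (e ▸ trivial)
  have htop : ∀ T : Subgroup G, Z ≤ T → x ∈ T → y ∈ T → T = ⊤ := fun T h1 h2 h3 => by
    by_contra h4
    have h5 := index_eq_of_lt_of_sq hp hZ (hlt (le_inf h1 hZC) ⟨h2, hxC⟩ hx)
      fun e => h4 (top_le_iff.1 (e.ge.trans inf_le_left))
    have := index_lt_index_of_lt (inf_le_left.lt_of_ne fun e : T ⊓ C = T => hy (e.ge h3).2)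
    rw [h5, index_eq_of_lt_of_sq hp hZ (hlt h1 h2 hx) h4] at this
    exact lt_irrefl _ this
  have hZc : commutator Z ≤ ⊥ := Subgroup.commutator_le.2 fun a _ b _ =>
    commutatorElement_eq_one_iff_mul_comm.2 (Subtype.ext (hc a a.2 b b.2))
  have hcen : (Subgroup.center G).subgroupOf Z ≤ ⨅ g, (commHom Z hc g).ker :=
    fun z hz => Subgroup.mem_iInf.2 fun g => Subtype.ext (by
      change g * z * g⁻¹ * (z : G)⁻¹ = 1
      rw [show g * z = z * g from Subgroup.mem_center_iff.1 hz g]; group)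
  have hidx : ∀ g, g ∉ Z → p ∣ (annih (commHom Z hc g).range).index := fun g hg => by
    obtain ⟨k, hk⟩ := H4.index_dvd_pow_of_pResidual_le h0
    rw [index_annih hZc, ← Subgroup.index_ker]
    obtain ⟨j, -, e⟩ := (Nat.dvd_prime_pow hp).1 (((Subgroup.index_dvd_of_le (hcen.trans
      (iInf_le _ g))).trans (Subgroup.relIndex_dvd_index_of_normal _ _)).trans hk)
    refine e ▸ dvd_pow_self p fun hj => ?_
    rw [hj, pow_zero, Subgroup.index_eq_one] at e
    have h1 := comm_of_mem_sup hc (comm_of_mem_zpowers g) fun a ha b hb => by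
      obtain ⟨i, rfl⟩ := hb
      have : g * a * g⁻¹ * a⁻¹ = 1 := congrArg Subtype.val (e.ge (Subgroup.mem_top (⟨a, ha⟩ : Z)))
      exact (Commute.zpow_left (commutatorElement_eq_one_iff_commute.1 this) i).symm.eq
    exact hno ⟨_, hnorm _ le_sup_left, h1, index_eq_of_lt_of_sq hp hZ
      (hlt le_sup_left (Subgroup.mem_sup_right (Subgroup.mem_zpowers g)) hg) fun e =>
        hK.not_le (Subgroup.commutator_le.2 fun a _ b _ => by
          rw [commutatorElement_eq_one_iff_mul_comm.2 (h1 a (e ▸ trivial) b (e ▸ trivial))]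
          exact one_mem _)⟩
  have hin : ∀ g (l : Z →* ℂˣ), l ∈ annih (commHom Z hc g).range ↔
      g ∈ H7.inertia fun z => (l z : ℂ) := fun g l => by
    rw [H7.mem_inertia']
    refine ⟨fun h1 n => ?_, fun h1 => ?_⟩
    · exact congrArg _ (mul_inv_eq_one.1 ((map_mul_inv l _ _).symm.trans (h1 _ ⟨n, rfl⟩)))
    · rintro _ ⟨n, rfl⟩
      exact (map_mul_inv l ⟨_, _⟩ n).trans (mul_inv_eq_one.2 (Units.ext (h1 n)))
  have := finite_hom (G := Z)
  have hyx : ∀ i : ℕ, y * x ^ i ∉ Z := fun i h1 =>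
    hy (by simpa using mul_mem (hZC h1) (inv_mem (C.pow_mem hxC i)))
  have key := fun i => index_eq_of_cover (i := i) hp.one_lt (K := annih (commHom Z hc x).range)
    (fun e => hp.one_lt.ne' (Nat.dvd_one.1 (Subgroup.index_eq_one.2 e ▸ hidx x hx)))
    (fun i => annih (commHom Z hc (y * x ^ i)).range)
    (fun i => Nat.le_of_dvd (Nat.pos_of_ne_zero Subgroup.index_ne_zero_of_finite) (hidx _ (hyx i)))
    fun l hl => by
      simp only [hin] at hl ⊢
      set T := H7.inertia fun z => (l z : ℂ)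
      have h1 : Z ≤ T := H7.le_inertia (irr_isClassFunction (isIrrCharacter_hom l))
      have := hnorm T h1
      have h2 : T.index = p := index_eq_of_lt_of_sq hp hZ (h1.lt_of_ne fun e => by
        obtain ⟨χ, hχ, -, h2⟩ := exists_deg_eq_index_mul (isIrrCharacter_hom l) e.ge
        rw [deg_hom, mul_one, hZ] at h2
        have := hp.one_lt
        rcases h χ hχ with e | e <;> nlinarith) fun e => hl (e ▸ trivial)
      have h3 := mt (QuotientGroup.eq_one_iff x).1 hl
      obtain ⟨i, hi, e⟩ := Finset.mem_image.1 (mem_zpowers_iff_mem_range_orderOf.1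
        (mem_zpowers_of_prime_card (G := G ⧸ T) h2 h3 (g' := (y : G ⧸ T)⁻¹)))
      refine ⟨i, (Finset.mem_range.1 hi).trans_le (h2 ▸ orderOf_le_card),
        (QuotientGroup.eq_one_iff _).1 ?_⟩
      rw [QuotientGroup.mk_mul, QuotientGroup.mk_pow, e, mul_inv_cancel]
  obtain ⟨h1, h2⟩ := key 0 hp.pos
  have h3 := (key 1 hp.one_lt).1
  simp only [pow_zero, mul_one, pow_one, index_annih hZc] at h1 h2 h3
  have h4 : (commHom Z hc x).range ⊓ (commHom Z hc y).range = ⊥ := by
    by_contra h4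
    have := Fact.mk (h1 ▸ hp : (Nat.card (commHom Z hc y).range).Prime)
    have h5 := ((((commHom Z hc x).range).subgroupOf _).eq_bot_or_eq_top_of_prime_card).resolve_left
      fun e => h4 (Subgroup.subgroupOf_eq_bot.1 e).eq_bot
    exact h2 fun l hl z hz => hl z (Subgroup.subgroupOf_eq_top.1 h5 hz)
  have h5 : (Subgroup.center G).subgroupOf Z = (commHom Z hc (y * x)).ker :=
    (hcen.trans (iInf_le _ _)).antisymm fun z hz => by
      let w : Z := ⟨x * z * x⁻¹, ‹Z.Normal›.conj_mem _ z.2 x⟩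
      have e1 : commHom Z hc y w * commHom Z hc x z = 1 := Subtype.ext (by
        have : y * x * z * (y * x)⁻¹ * (z : G)⁻¹ = 1 := congrArg Subtype.val hz
        rw [← show _ = ((1 : Z) : G) from this]
        change y * (x * z * x⁻¹) * y⁻¹ * (x * z * x⁻¹)⁻¹ * (x * z * x⁻¹ * (z : G)⁻¹) = _
        group)
      have e2 : commHom Z hc x z = 1 := h4.le ⟨⟨z, rfl⟩, by
        rw [eq_inv_of_mul_eq_one_right e1]; exact (commHom Z hc y).range.inv_mem ⟨w, rfl⟩⟩
      have e3 : Commute x z := commutatorElement_eq_one_iff_commute.1 (congrArg Subtype.val e2)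
      rw [e2, mul_one, show w = z from Subtype.ext e3.mul_inv_cancel] at e1
      refine Subgroup.mem_center_iff.2 fun g => Subgroup.mem_centralizer_singleton_iff.1
        ((htop _ (fun a ha => Subgroup.mem_centralizer_singleton_iff.2 (hc a ha z z.2))
          (Subgroup.mem_centralizer_singleton_iff.2 e3) (Subgroup.mem_centralizer_singleton_iff.2
            (commutatorElement_eq_one_iff_mul_comm.1 (congrArg Subtype.val e1)))).ge trivial)
  rw [← Subgroup.relIndex_mul_index (show Subgroup.center G ≤ Z from fun z hz => (hA.mem_iff z).2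
    fun g => by
      rw [commutatorElement_eq_one_iff_mul_comm.2 (Subgroup.mem_center_iff.1 hz g).symm]
      exact one_mem _), Subgroup.relIndex, h5, Subgroup.index_ker, h3, hZ]
  ring

end H87
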