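import Mathlib
import Cfsg.Agent.Lib.Deg.Cliff
import Cfsg.Agent.Lib.Deg.FS
import Cfsg.Agent.Lib.Char.GoingDown
import Cfsg.Agent.Lib.LocEven.Basic
import Cfsg.Agent.Lib.Core.GrpBasic

/-!
Fully ramified characters.
-/

set_option autoImplicit false

namespace H87

open Cfsg H6
open scoped ComplexConjugate commutatorElement

set_option linter.unusedSectionVars false

variable {G : Type*} [Group G]

/-- transport of a function on `Z` to `Z.subgroupOf S`. -/
abbrev subOf {Z : Subgroup G} (S : Subgroup G) (θ : Z → ℂ) : Z.subgroupOf S → ℂ :=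
  fun x => θ ⟨(x : S), Subgroup.mem_subgroupOf.mp x.2⟩

theorem relIndex_eq_of_mul {A C T : Subgroup G} (hAT : A ≤ T)
    (h : ∀ t ∈ T, ∃ a ∈ A, ∃ c ∈ C, t = a * c) : C.relIndex T = C.relIndex A := by
  refine (Nat.card_congr (Equiv.ofBijective (Subgroup.quotientSubgroupOfEmbeddingOfLE C hAT)
    ⟨Function.Embedding.injective _, fun q => ?_⟩)).symm
  obtain ⟨t, rfl⟩ := QuotientGroup.mk_surjective q
  obtain ⟨a, ha, c, hc, h1⟩ := h t t.2
  refine ⟨QuotientGroup.mk ⟨a, ha⟩, ?_⟩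
  rw [Subgroup.quotientSubgroupOfEmbeddingOfLE_apply_mk, QuotientGroup.eq, Subgroup.mem_subgroupOf]
  simpa [h1] using hc

/-- `χ` is fully ramified over `θ`. -/
structure FR (Z : Subgroup G) (χ : G → ℂ) (θ : Z → ℂ) (e : ℕ) : Prop where
  irr : IsIrrCharacter G χ
  irr' : IsIrrCharacter Z θ
  sq : e ^ 2 = Z.index
  res : ∀ z : Z, χ z = e * θ z

variable [Finite G] {Z : Subgroup G} {χ : G → ℂ} {θ : Z → ℂ} {e : ℕ}

theorem FR.pos (h : FR Z χ θ e) : 0 < e := by
  rcases Nat.eq_zero_or_pos e with h0 | h0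
  · exact absurd (by rw [← h.sq, h0]; rfl) (Subgroup.index_ne_zero_of_finite (H := Z))
  · exact h0

theorem FR.ne (h : FR Z χ θ e) : (e : ℂ) ≠ 0 := Nat.cast_ne_zero.2 h.pos.ne'

theorem FR.vanish (h : FR Z χ θ e) {g : G} (hg : g ∉ Z) : χ g = 0 :=
  H31.vanish_of_fullyRamified Z h.irr h.irr' (funext fun z => by simp [h.res z]) h.sq hg

theorem FR.over (h : FR Z χ θ e) : Over Z χ θ := over_of_eq_mul h.irr' h.ne h.res

theorem FR.deg (h : FR Z χ θ e) : charDegree χ = e * charDegree θ := by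
  have := h.res 1
  rw [OneMemClass.coe_one, ← irr_deg_cast h.irr, ← irr_deg_cast h.irr'] at this
  exact_mod_cast this

theorem FR.inv [Z.Normal] (h : FR Z χ θ e) : H7.inertia θ = ⊤ := by
  refine H7.inertia_eq_top_iff.2 fun g n => mul_left_cancel₀ h.ne ?_
  rw [← h.res, ← h.res]
  exact irr_isClassFunction h.irr _ _

/-- the inner product with a function on a subgroup containing `Z`. -/
theorem FR.sum_res (h : FR Z χ θ e) {H : Type*} [Group H] [Fintype H] [Fintype Z] (f : H →* G)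
    (hf : Function.Injective f) (i : Z →* H) (hi : ∀ z, f (i z) = z) (ψ : H → ℂ) :
    ∑ x : H, χ (f x) * conj (ψ x) = e * ∑ z : Z, θ z * conj (ψ (i z)) := by
  classical
  have hinj : Function.Injective i := fun a b hab => Subtype.ext (by rw [← hi, ← hi, hab])
  rw [Finset.mul_sum, ← Finset.sum_subset (Finset.subset_univ (Finset.univ.map ⟨i, hinj⟩))]
  · rw [Finset.sum_map]
    refine Finset.sum_congr rfl fun z _ => ?_
    simp only [Function.Embedding.coeFn_mk, hi, h.res, mul_assoc]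
  · intro x _ hx
    rw [h.vanish, zero_mul]
    intro hz
    exact hx (Finset.mem_map.2 ⟨⟨f x, hz⟩, Finset.mem_univ _, hf (by simp [hi])⟩)

theorem FR.eq_of_over (h : FR Z χ θ e) {ψ : G → ℂ} (hψ : IsIrrCharacter G ψ) (ho : Over Z ψ θ) :
    ψ = χ := by
  have := Fintype.ofFinite G
  have := Fintype.ofFinite Z
  refine (irr_eq_of_inner_ne_zero h.irr hψ ?_).symm
  have h1 := h.sum_res (MonoidHom.id G) Function.injective_id Z.subtype (fun _ => rfl) ψ
  rw [classInner_def]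
  refine mul_ne_zero (inv_ne_zero card_ne_zero) ?_
  simp only [MonoidHom.id_apply] at h1
  rw [h1]
  refine mul_ne_zero h.ne fun h0 => ?_
  rw [Over, finsum_eq_sum_of_fintype] at ho
  apply ho
  have := congrArg conj h0
  simpa [mul_comm] using this

theorem inertia_subOf_eq_top [Z.Normal] (hinv : H7.inertia θ = ⊤) (S : Subgroup G) :
    H7.inertia (subOf S θ) = ⊤ :=
  H7.inertia_eq_top_iff.2 fun g n => H7.inertia_eq_top_iff.1 hinv g ⟨(n : S), n.2⟩

/-- full ramification passes to Hall subgroups of `G/Z`. -/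
theorem FR.sub [Z.Normal] (h : FR Z χ θ e) {S : Subgroup G} (hZS : Z ≤ S)
    (hcop : (Z.relIndex S).Coprime S.index) {ψ : S → ℂ} (hψ : IsIrrCharacter S ψ)
    (ho : Over (Z.subgroupOf S) ψ (subOf S θ)) : ∃ f, FR (Z.subgroupOf S) ψ (subOf S θ) f := by
  have := Fintype.ofFinite S
  have := Fintype.ofFinite Z
  have := Fintype.ofFinite (Z.subgroupOf S)
  have hθ' : IsIrrCharacter _ (subOf S θ) := H7.isIrr_subgroupOf hZS h.irr'
  obtain ⟨f, hf0, -, hf⟩ := ho.res_eq_of_invariant hψ hθ' (inertia_subOf_eq_top h.inv S)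
  refine ⟨f, hψ, hθ', ?_, hf⟩
  obtain ⟨m, hm⟩ := char_inner_nat (isCharacter_restrict S (irr_isCharacter h.irr)) (irr_isCharacter hψ)
  have h1 := h.sum_res S.subtype S.subtype_injective (Subgroup.inclusion hZS) (fun _ => rfl) ψ
  have h2 : ∀ z : Z, ψ (Subgroup.inclusion hZS z) = f * θ z := fun z =>
    hf ⟨Subgroup.inclusion hZS z, z.2⟩
  simp only [h2, map_mul, map_natCast, Subgroup.coe_subtype] at h1
  have h3 : ∑ z : Z, θ z * ((f : ℂ) * conj (θ z)) = f * Nat.card Z := by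
    rw [← sum_mul_conj_self h.irr', Finset.mul_sum]
    exact Finset.sum_congr rfl fun z _ => by ring
  rw [h3, ← H7.card_mul_classInner, hm, ← H1.card_mul_relIndex_of_le hZS] at h1
  have h4 : Z.relIndex S * m = e * f := by
    have hZ : (Nat.card Z : ℂ) ≠ 0 := card_ne_zero
    have : ((Z.relIndex S * m : ℕ) : ℂ) = ((e * f : ℕ) : ℂ) := by
      push_cast at h1 ⊢
      refine mul_left_cancel₀ hZ ?_
      linear_combination h1
    exact_mod_cast this
  have h5 : e ^ 2 = Z.relIndex S * S.index := by rw [h.sq, Subgroup.relIndex_mul_index hZS]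
  have h6 : f ^ 2 ≤ Z.relIndex S := by
    have h7 := H7.classInner_res_self_re_le (Z.subgroupOf S) ψ
    rw [irr_inner_self hψ] at h7
    have h8 : (fun x : Z.subgroupOf S => ψ x) = (f : ℂ) • subOf S θ := funext fun x => by
      simp [hf x]
    rw [h8, H7.classInner_smul_left, H7.classInner_smul_right, irr_inner_self hθ'] at h7
    simp only [map_natCast, mul_one, Complex.one_re] at h7
    have h9 : ((f : ℂ) * f).re = ((f ^ 2 : ℕ) : ℝ) := by
      rw [← Nat.cast_mul, Complex.natCast_re, pow_two]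
    rw [h9] at h7
    exact_mod_cast h7
  have ha : 0 < Z.relIndex S := Nat.pos_of_ne_zero Subgroup.index_ne_zero_of_finite
  have h10 : Z.relIndex S ∣ f ^ 2 := by
    refine hcop.dvd_of_dvd_mul_left ⟨m ^ 2, Nat.eq_of_mul_eq_mul_left ha ?_⟩
    calc _ = (Z.relIndex S * S.index) * f ^ 2 := by ring
      _ = (e * f) ^ 2 := by rw [← h5]; ring
      _ = _ := by rw [← h4]; ring
  exact le_antisymm h6 (Nat.le_of_dvd (by positivity) h10)

theorem FR.exists_sub [Z.Normal] (h : FR Z χ θ e) {S : Subgroup G} (hZS : Z ≤ S)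
    (hcop : (Z.relIndex S).Coprime S.index) :
    ∃ (ψ : S → ℂ) (f : ℕ), FR (Z.subgroupOf S) ψ (subOf S θ) f := by
  obtain ⟨ψ, hψ, ho⟩ := exists_over (H7.isIrr_subgroupOf hZS h.irr')
  exact ⟨ψ, h.sub hZS hcop hψ ho⟩

theorem FR.mul_sub (h : FR Z χ θ e) {S : Subgroup G} {ψ : S → ℂ} {f : ℕ}
    (h' : FR (Z.subgroupOf S) ψ (subOf S θ) f) (s : S) : e * ψ s = f * χ s := by
  by_cases hs : (s : G) ∈ Z
  · rw [h'.res ⟨s, hs⟩, h.res ⟨s, hs⟩]; ring
  · rw [h'.vanish (g := s) hs, h.vanish hs, mul_zero, mul_zero]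

/-- the elements fixing a function under conjugation. -/
def fixFun (u : G → ℂ) : Subgroup G where
  carrier := {g | ∀ x, u (g * x * g⁻¹) = u x}
  one_mem' := fun x => by simp
  mul_mem' := fun {a b} ha hb x => by
    rw [show a * b * x * (a * b)⁻¹ = a * (b * x * b⁻¹) * a⁻¹ by group, ha, hb]
  inv_mem' := fun {a} ha x => by
    rw [← ha (a⁻¹ * x * a⁻¹⁻¹)]; congr 1; group

theorem FR.exists_compl [Z.Normal] (h : FR Z χ θ e) {K S : Subgroup G} [hK : K.Normal]
    (hZK : Z ≤ K) (hZS : Z ≤ S) {p k : ℕ} (hp : p.Prime) (hk : Z.relIndex S = p ^ k)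
    (hS : ¬ p ∣ S.index)
    (hfr : ∀ g, ∃ n ∈ Subgroup.normalizer ((S ⊓ K : Subgroup G) : Set G), ∃ x ∈ K, g = n * x)
    {ψ : S → ℂ} {f : ℕ} (h' : FR (Z.subgroupOf S) ψ (subOf S θ) f)
    {η : K.subgroupOf S → ℂ} (hη : IsIrrCharacter _ η) (ho : Over (K.subgroupOf S) ψ η)
    (hI : H7.inertia η ≤ K.subgroupOf S) :
    ∃ M : Subgroup G, K ≤ M ∧ (∃ j, M.index = p ^ j) ∧ ¬ p ∣ K.relIndex M := by
  classical
  set N := Subgroup.normalizer ((S ⊓ K : Subgroup G) : Set G) with hN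
  have hSN : S ≤ N := H68.le_normalizer_of_forall_cj_le fun g hg => H68.cj_le_iff'.2 fun x hx =>
    ⟨S.mul_mem (S.mul_mem hg hx.1) (S.inv_mem hg), hK.conj_mem x hx.2 g⟩
  let u : G → ℂ := fun g => if hg : g ∈ S ⊓ K then η ⟨⟨g, hg.1⟩, hg.2⟩ else 0
  have hu : ∀ (g : G) (hg : g ∈ S ⊓ K), u g = η ⟨⟨g, hg.1⟩, hg.2⟩ := fun g hg => dif_pos hg
  have hu0 : ∀ g : G, g ∉ S ⊓ K → u g = 0 := fun g hg => dif_neg hg
  have hfix : ∀ n ∈ N, (∀ x ∈ S ⊓ K, u (n * x * n⁻¹) = u x) → n ∈ fixFun u := fun n hn hx x => by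
    by_cases hm : x ∈ S ⊓ K
    · exact hx x hm
    · rw [hu0 x hm, hu0]
      exact fun h2 => hm ((Subgroup.mem_normalizer_iff.1 hn x).2 h2)
  set T := N ⊓ fixFun u with hT
  have h1 : ∀ n ∈ N, ∃ s ∈ S, ∃ t ∈ T, n = s * t := fun n hn => by
    have hm : ∀ x : K.subgroupOf S, n⁻¹ * (x : S) * n ∈ S ⊓ K := fun x =>
      H68.conj_mem_of_mem_normalizer' hn ⟨(x : S).2, x.2⟩
    have hm' : ∀ x : K.subgroupOf S, n * (x : S) * n⁻¹ ∈ S ⊓ K := fun x =>
      H68.conj_mem_of_mem_normalizer hn ⟨(x : S).2, x.2⟩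
    let c : K.subgroupOf S ≃* K.subgroupOf S :=
      { toFun := fun x => ⟨⟨n⁻¹ * (x : S) * n, (hm x).1⟩, (hm x).2⟩
        invFun := fun x => ⟨⟨n * (x : S) * n⁻¹, (hm' x).1⟩, (hm' x).2⟩
        left_inv := fun x => Subtype.ext (Subtype.ext (by simp [mul_assoc]))
        right_inv := fun x => Subtype.ext (Subtype.ext (by simp [mul_assoc]))
        map_mul' := fun x y => Subtype.ext (Subtype.ext (by simp [mul_assoc])) }
    have hc : ∀ x, ψ (c x : S) = ψ x := fun x => by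
      refine mul_left_cancel₀ h.ne ?_
      rw [h.mul_sub h', h.mul_sub h']
      congr 1
      exact H7.isClassFunction_inv_conj (irr_isClassFunction h.irr) _ _
    have ho' : Over (K.subgroupOf S) ψ (fun x => η (c x)) := by
      have := Fintype.ofFinite (K.subgroupOf S)
      rw [Over, finsum_eq_sum_of_fintype] at ho ⊢
      rw [← Equiv.sum_comp c.toEquiv] at ho
      simpa [hc] using ho
    obtain ⟨g, hg⟩ := ho.exists_conj ho' h'.irr hη (isIrrCharacter_comp_equiv c hη)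
    have hgn : (g : G) * n ∈ N := N.mul_mem (hSN g.2) hn
    refine ⟨g⁻¹, S.inv_mem g.2, g * n, ⟨hgn, hfix _ hgn fun x hx => ?_⟩, by group⟩
    have h2 := congrFun hg (c.symm ⟨⟨x, hx.1⟩, hx.2⟩)
    simp only [MulEquiv.apply_symm_apply] at h2
    rw [hu x hx, h2, hu _ (H68.conj_mem_of_mem_normalizer hgn hx), H7.conjChar_apply]
    congr 1
    exact Subtype.ext (Subtype.ext (by simp [c, mul_assoc]))
  have hQT : S ⊓ K ≤ T := fun x hx => ⟨hSN hx.1, hfix x (hSN hx.1) fun y hy => by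
    rw [hu y hy, hu _ (H68.conj_mem_of_mem_normalizer (hSN hx.1) hy)]
    exact irr_isClassFunction hη ⟨⟨y, hy.1⟩, hy.2⟩ ⟨⟨x, hx.1⟩, hx.2⟩⟩
  have h2 : T ⊓ S = S ⊓ K := by
    refine le_antisymm (fun s hs => ⟨hs.2, ?_⟩) (le_inf hQT inf_le_left)
    refine hI (x := ⟨s, hs.2⟩) (H7.mem_inertia'.2 fun y => ?_)
    have h3 := hs.1.2 (y : S)
    rw [hu _ (show ((y : S) : G) ∈ S ⊓ K from ⟨(y : S).2, y.2⟩),
      hu _ (H68.conj_mem_of_mem_normalizer hs.1.1 ⟨(y : S).2, y.2⟩)] at h3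
    exact h3
  refine ⟨T ⊔ K, le_sup_right, ?_, ?_⟩
  · have h3 : (T ⊔ K).index = (T ⊔ K).relIndex S := by
      rw [← Subgroup.relIndex_top_right]
      refine relIndex_eq_of_mul le_top fun g _ => ?_
      obtain ⟨n, hn, x, hx, rfl⟩ := hfr g
      obtain ⟨s, hs, t, ht, rfl⟩ := h1 n hn
      exact ⟨s, hs, t * x, Subgroup.mul_mem_sup ht hx, mul_assoc _ _ _⟩
    have h4 : (T ⊔ K).relIndex S ∣ p ^ k :=
      hk ▸ Subgroup.relIndex_dvd_of_le_left S (hZK.trans le_sup_right)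
    obtain ⟨j, -, hj⟩ := (Nat.dvd_prime_pow hp).1 h4
    exact ⟨j, h3.trans hj⟩
  · rw [Subgroup.relIndex_sup_right]
    have h3 : T.relIndex N = (S ⊓ K).relIndex S := by
      rw [relIndex_eq_of_mul hSN h1, ← h2, Subgroup.inf_relIndex_right]
    have h4 := Subgroup.relIndex_mul_relIndex _ _ _ hQT (inf_le_left : T ≤ N)
    rw [← Subgroup.relIndex_mul_relIndex _ _ _ (inf_le_left : S ⊓ K ≤ S) hSN, h3, mul_comm] at h4
    have h5 := Nat.eq_of_mul_eq_mul_left
      (Nat.pos_of_ne_zero Subgroup.index_ne_zero_of_finite) h4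
    exact fun hd => hS ((hd.trans (Subgroup.relIndex_dvd_of_le_left T inf_le_right)).trans
      (h5 ▸ Subgroup.relIndex_dvd_index_of_le hSN))

theorem sylow_over (Z K : Subgroup G) [Z.Normal] [K.Normal] (hZK : Z ≤ K) {p : ℕ} [Fact p.Prime]
    (P : Sylow p G) : (∃ k, Z.relIndex (Z ⊔ P) = p ^ k) ∧ ¬ p ∣ (Z ⊔ P : Subgroup G).index ∧
      ∀ g, ∃ n ∈ Subgroup.normalizer (((Z ⊔ P) ⊓ K : Subgroup G) : Set G), ∃ x ∈ K, g = n * x := by
  refine ⟨?_, fun hd => P.not_dvd_index (hd.trans (Subgroup.index_dvd_of_le le_sup_right)),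
    fun g => ?_⟩
  · rw [Subgroup.relIndex_sup_left]
    obtain ⟨k, hk⟩ := P.isPGroup'.exists_card_eq
    obtain ⟨j, -, hj⟩ := (Nat.dvd_prime_pow Fact.out).1
      (hk ▸ Subgroup.relIndex_dvd_card Z (P : Subgroup G))
    exact ⟨j, hj⟩
  · have h1 := (H68.sylowIn_top P).inf_of_normal_le (N := K) Subgroup.le_normalizer_of_normal le_top
    obtain ⟨n, hn, x, hx, rfl⟩ := h1.frattini' (g := g) (Subgroup.le_normalizer_of_normal (Subgroup.mem_top g))
    refine ⟨n, ?_, x, hx, rfl⟩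
    rw [inf_comm, H68.inf_sup_of_le_normalizer' Subgroup.le_normalizer_of_normal hZK,
      H68.mem_normalizer_iff_cj, H68.cj_sup, H68.cj_eq_of_normal, inf_comm,
      H68.cj_eq_of_mem_normalizer hn]

theorem index_map_eq_pow {K M : Subgroup G} [K.Normal] (hKM : K ≤ M) {p j : ℕ} (hp : p.Prime)
    (hj : M.index = p ^ j) (hd : ¬ p ∣ K.relIndex M) :
    (M.map (QuotientGroup.mk' K)).index = p ^ (Nat.card (G ⧸ K)).factorization p ∧
      ¬ p ∣ Nat.card (M.map (QuotientGroup.mk' K)) := by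
  have h1 : (M.map (QuotientGroup.mk' K)).index = p ^ j := by
    rw [Subgroup.index_map_eq _ (QuotientGroup.mk'_surjective K) (by simpa using hKM), hj]
  have h2 := H1.card_map_mk'_eq_relIndex K M
  refine ⟨?_, h2 ▸ hd⟩
  rw [h1, ← (M.map (QuotientGroup.mk' K)).card_mul_index, h1, h2,
    Nat.factorization_mul (h2 ▸ Nat.card_pos.ne') (pow_ne_zero _ hp.ne_zero)]
  simp [Nat.factorization_eq_zero_of_not_dvd hd, hp.factorization_self]

theorem FR.compl_of_isCyclic [Z.Normal] (h : FR Z χ θ e) {K : Subgroup G} [hK : K.Normal]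
    (hZK : Z ≤ K) {p : ℕ} [hp : Fact p.Prime] (P : Sylow p (G ⧸ K)) (hc : IsCyclic P) :
    ∃ M : Subgroup G, K ≤ M ∧ (∃ j, M.index = p ^ j) ∧ ¬ p ∣ K.relIndex M := by
  obtain ⟨P0⟩ : Nonempty (Sylow p G) := inferInstance
  obtain ⟨⟨k, hk⟩, hS, hfr⟩ := sylow_over Z K hZK P0
  set S : Subgroup G := Z ⊔ P0 with hSdef
  obtain ⟨ψ, f, h'⟩ := h.exists_sub (S := S) le_sup_left
    (hk ▸ Nat.Coprime.pow_left _ ((Nat.Prime.coprime_iff_not_dvd hp.out).2 hS))
  obtain ⟨η, hη, ho⟩ := exists_under h'.irr (K.subgroupOf S)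
  refine h.exists_compl hZK le_sup_left hp.out hk hS hfr h' hη ho ?_
  have hcyc : IsCyclic (S ⧸ K.subgroupOf S) := by
    let P1 := P0.mapSurjective (QuotientGroup.mk'_surjective K)
    have h1 : IsCyclic P1 := (MulEquiv.isCyclic (Sylow.equiv P P1)).1 hc
    have h2 : ((QuotientGroup.mk' K).comp S.subtype).range = P1 := by
      rw [MonoidHom.range_comp, Subgroup.range_subtype, hSdef, Subgroup.map_sup,
        (Subgroup.map_eq_bot_iff Z).2 (by simpa using hZK), bot_sup_eq]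
      rfl
    have h3 : ((QuotientGroup.mk' K).comp S.subtype).ker = K.subgroupOf S := by
      ext x; simp [Subgroup.mem_subgroupOf]
    exact (MulEquiv.isCyclic (((QuotientGroup.quotientMulEquivOfEq h3).symm.trans
      (QuotientGroup.quotientKerEquivRange _)).trans (MulEquiv.subgroupCongr h2))).2 h1
  obtain ⟨e', h1, h2⟩ := index_dvd_of_vanish (N := K.subgroupOf S) h'.irr
    (fun g hg => h'.vanish fun hz => hg (hZK hz)) hη ho
  have h3 := ho.deg_eq_of_isCyclic hcyc hη h'.irr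
  have h4 : e' = 1 := by
    rw [h3, mul_assoc] at h1
    exact (Nat.eq_of_mul_eq_mul_right (Nat.mul_pos
      (Nat.pos_of_ne_zero Subgroup.index_ne_zero_of_finite) (deg_pos hη))
      (h1.symm.trans (one_mul _).symm))
  rw [h4, one_pow, one_mul] at h2
  exact (Subgroup.eq_of_le_of_card_ge (H7.le_inertia (irr_isClassFunction hη))
    (Nat.le_of_mul_le_mul_right (by rw [Subgroup.card_mul_index, ← h2, Subgroup.card_mul_index])
      (Nat.pos_of_ne_zero (Subgroup.index_ne_zero_of_finite (H := H7.inertia η))))).ge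

theorem FR.compl_of_induced [Z.Normal] [Fintype G] (h : FR Z χ θ e) {K : Subgroup G}
    [hK : K.Normal] (hZK : Z ≤ K) {φ : K → ℂ} (hφ : IsCharacter K φ) (hind : indFun K φ = χ)
    {p : ℕ} [hp : Fact p.Prime] :
    ∃ M : Subgroup G, K ≤ M ∧ (∃ j, M.index = p ^ j) ∧ ¬ p ∣ K.relIndex M := by
  obtain ⟨P0⟩ : Nonempty (Sylow p G) := inferInstance
  obtain ⟨⟨k, hk⟩, hS, hfr⟩ := sylow_over Z K hZK P0
  set S : Subgroup G := Z ⊔ P0 with hSdef
  have hcop : (Z.relIndex S).Coprime S.index :=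
    hk ▸ Nat.Coprime.pow_left _ ((Nat.Prime.coprime_iff_not_dvd hp.out).2 hS)
  obtain ⟨ψ, f, h'⟩ := h.exists_sub (S := S) le_sup_left hcop
  obtain ⟨η, hη, ho⟩ := exists_under h'.irr (K.subgroupOf S)
  refine h.exists_compl hZK le_sup_left hp.out hk hS hfr h' hη ho ?_
  obtain ⟨e', h1, h2⟩ := index_dvd_of_vanish (N := K.subgroupOf S) h'.irr
    (fun g hg => h'.vanish fun hz => hg (hZK hz)) hη ho
  have hφi : IsIrrCharacter K φ := H7.isIrr_of_isIrr_indFun K hφ (hind ▸ h.irr)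
  have := Fintype.ofFinite (K.subgroupOf S)
  have := Fintype.ofFinite K
  have h3 : charDegree η ∣ charDegree φ := by
    rw [← deg_comp (H7.subgroupOfHom K S) φ]
    refine dvd_deg_of_forall_constituent (isCharacter_comp _ hφ) fun μ hμ hne => ?_
    have h4 : classInner (fun x : K => χ x) φ ≠ 0 := over_iff.1 (hind ▸ over_indFun_self hφi)
    have h5 := H7.inner_comp_ne_zero_of_constituent (H7.subgroupOfHom K S)
      (isCharacter_restrict K (irr_isCharacter h.irr)) hφi h4 (irr_isCharacter hμ) hne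
    have h6 : Over (K.subgroupOf S) ψ μ := by
      rw [over_iff]
      intro h0
      apply h5
      have h7 : (f : ℂ) • (fun x : K.subgroupOf S => χ (H7.subgroupOfHom K S x)) =
          (e : ℂ) • fun x : K.subgroupOf S => ψ x := funext fun x => (h.mul_sub h' x).symm
      have h8 := congrArg (fun a => classInner a μ) h7
      simp only [H7.classInner_smul_left, h0, mul_zero] at h8
      exact (mul_eq_zero.1 h8).resolve_left h'.ne
    rw [ho.deg_eq_of_over h6 h'.irr hη hμ]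
  have h4 : e' = 1 := by
    have h5 : K.index * charDegree φ = e * charDegree θ := by
      rw [← deg_indFun K hφ, hind, h.deg]
    have h6 : charDegree ψ = f * charDegree θ := h'.deg
    have h7 : (K.subgroupOf S).index ∣ K.index := Subgroup.relIndex_dvd_index_of_normal K S
    have h8 : e ^ 2 = f ^ 2 * S.index := by
      rw [h.sq, h'.sq, ← Subgroup.relIndex_mul_index (le_sup_left : Z ≤ S)]; rfl
    have h9 : e' ^ 2 * (H7.inertia η).index * charDegree η * f ∣ e * charDegree θ * f :=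
      mul_dvd_mul_right (h5 ▸ mul_dvd_mul (h2 ▸ h7) h3) f
    rw [mul_assoc e, mul_comm (charDegree θ), ← h6, h1] at h9
    have hpos : 0 < e' * (H7.inertia η).index * charDegree η := h1 ▸ deg_pos h'.irr
    have h10 : e' * f ∣ e := by
      refine Nat.dvd_of_mul_dvd_mul_right hpos ?_
      convert h9 using 1; ring
    have h11 : e' ^ 2 ∣ S.index := by
      have := pow_dvd_pow_of_dvd h10 2
      rw [h8, mul_pow, mul_comm] at this
      exact Nat.dvd_of_mul_dvd_mul_left (pow_pos h'.pos 2) this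
    have h12 : e' ^ 2 ∣ Z.relIndex S :=
      (Dvd.intro _ h2.symm).trans (Subgroup.relIndex_dvd_of_le_left S hZK)
    have := Nat.eq_one_of_dvd_coprimes hcop h12 h11
    exact (Nat.pow_eq_one.1 this).resolve_right two_ne_zero
  rw [h4, one_pow, one_mul] at h2
  exact (Subgroup.eq_of_le_of_card_ge (H7.le_inertia (irr_isClassFunction hη))
    (Nat.le_of_mul_le_mul_right (by rw [Subgroup.card_mul_index, ← h2, Subgroup.card_mul_index])
      (Nat.pos_of_ne_zero (Subgroup.index_ne_zero_of_finite (H := H7.inertia η))))).ge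

theorem sum_hom_trivial (L : Subgroup G) (hL : commutator G ≤ L) {g : G} (hg : g ∉ L)
    [Fintype {lam : G →* ℂˣ // ∀ x ∈ L, lam x = 1}] :
    ∑ lam : {lam : G →* ℂˣ // ∀ x ∈ L, lam x = 1}, (lam.1 g : ℂ) = 0 := by
  obtain ⟨μ, hμ, hμg⟩ := exists_hom_trivial_ne_one L hL hg
  let e : {lam : G →* ℂˣ // ∀ x ∈ L, lam x = 1} ≃ {lam : G →* ℂˣ // ∀ x ∈ L, lam x = 1} :=
    (Equiv.mulLeft μ).subtypeEquiv fun lam => by simp +contextual [hμ]
  have h1 := Equiv.sum_comp e fun lam => (lam.1 g : ℂ)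
  have h2 : ∀ lam, ((e lam).1 g : ℂ) = μ g * lam.1 g := fun lam => by simp [e]
  simp only [h2, ← Finset.mul_sum] at h1
  by_contra h0
  exact hμg (Units.ext (mul_right_cancel₀ h0 (h1.trans (one_mul _).symm)))

/-- an extension of an irreducible character does not vanish on a coset. -/
theorem exists_ne_zero_on_coset (N : Subgroup G) [N.Normal] (hN : commutator G ≤ N) {η : G → ℂ}
    (hη : IsIrrCharacter G η) (hr : IsIrrCharacter N fun n : N => η n) (x : G) :
    ∃ n ∈ N, η (x * n) ≠ 0 := by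
  classical
  have := Fintype.ofFinite G
  have := Fintype.ofFinite {lam : G →* ℂˣ // ∀ x ∈ N, lam x = 1}
  by_contra! h0
  have h1 : ∑ lam : {lam : G →* ℂˣ // ∀ x ∈ N, lam x = 1},
      (lam.1 x⁻¹ : ℂ) * ∑ g, η g * lam.1 g * conj (η g) = 0 := by
    simp only [Finset.mul_sum]
    rw [Finset.sum_comm]
    refine Finset.sum_eq_zero fun g _ => ?_
    by_cases hg : x⁻¹ * g ∈ N
    · have := h0 _ hg
      rw [mul_inv_cancel_left] at this
      simp [this]
    · have := sum_hom_trivial N hN hg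
      simp only [map_mul, Units.val_mul] at this
      calc _ = (η g * conj (η g)) * ∑ lam : {lam : G →* ℂˣ // ∀ x ∈ N, lam x = 1},
            (lam.1 x⁻¹ : ℂ) * lam.1 g := by
            rw [Finset.mul_sum]; exact Finset.sum_congr rfl fun _ _ => by ring
        _ = 0 := by rw [this, mul_zero]
  rw [Finset.sum_eq_single ⟨1, fun _ _ => rfl⟩] at h1
  · simp only [MonoidHom.one_apply, Units.val_one, mul_one, one_mul, sum_mul_conj_self hη] at h1
    exact card_ne_zero h1
  · rintro ⟨lam, hl⟩ - hne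
    rw [← H7.card_mul_classInner (fun g => η g * lam g) η,
      irr_inner_ne (isIrrCharacter_mul_hom hη lam) hη, mul_zero, mul_zero]
    intro he
    have h2 := H31.gallagher_inj N (irr_isCharacter hη) hr (isIrrCharacter_hom lam)
      (fun n hn => by simp [hl n hn]) isIrrCharacter_one (fun _ _ => rfl)
      (funext fun g => by simpa [mul_comm] using congrFun he g)
    exact hne (Subtype.ext (hom_coe_injective (by simpa using h2)))
  · simp

theorem FR.indFun_vanish [Fintype G] (h : FR Z χ θ e) {T : Subgroup G} (hZT : Z ≤ T) {ψ : T → ℂ}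
    (hψ : IsIrrCharacter T ψ) (ho : ∑ᶠ x : Z, ψ ⟨x, hZT x.2⟩ * conj (θ x) ≠ 0) {g : G}
    (hg : g ∉ Z) : indFun T ψ g = 0 := by
  rw [eq_smul_of_unique_constituent (H7.isClassFunction_indFun T ψ) h.irr fun μ hμ hne =>
    h.eq_of_over hμ ((over_of_inner_indFun (irr_isClassFunction hμ) hne).trans hZT ho
      (irr_isCharacter hμ) hψ (irr_isCharacter h.irr')), h.vanish hg, mul_zero]

theorem FR.centralizer_ne [hZ : Z.Normal] (h : FR Z χ θ e) (hne : Z ≠ ⊤) (C : Subgroup (G ⧸ Z))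
    (hC : IsCyclic C) : Subgroup.centralizer (C : Set (G ⧸ Z)) ≠ C := by
  classical
  intro hcen
  have := Fintype.ofFinite G
  obtain ⟨c, hc⟩ := (Subgroup.isCyclic_iff_exists_zpowers_eq_top C).1 hC
  obtain ⟨x, rfl⟩ := QuotientGroup.mk_surjective c
  set T := C.comap (QuotientGroup.mk' Z) with hT
  have hZT : Z ≤ T := fun z hz => by
    simp [hT, (QuotientGroup.eq_one_iff z).2 hz]
  have hxT : x ∈ T := by simp [hT, ← hc]
  have hmem : ∀ g : G, x⁻¹ * (g⁻¹ * x * g) ∈ Z → g ∈ T := fun g hg => by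
    rw [hT, Subgroup.mem_comap, ← hcen, ← hc, Subgroup.mem_centralizer_iff]
    rintro _ ⟨k, rfl⟩
    refine (Commute.zpow_left ?_ k).eq
    have := (QuotientGroup.eq_one_iff _).2 hg
    simp only [QuotientGroup.mk_mul, QuotientGroup.mk_inv] at this
    rw [inv_mul_eq_one, mul_assoc, eq_inv_mul_iff_mul_eq] at this
    exact this.symm
  have hxZ : x ∉ Z := fun hx => hne (top_le_iff.1 fun g _ => by
    have h1 := hmem g (Z.mul_mem (Z.inv_mem hx) (hZ.conj_mem' x hx g))
    rw [hT, Subgroup.mem_comap, ← hc, (QuotientGroup.eq_one_iff x).2 hx] at h1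
    simpa using h1)
  have hker : ((QuotientGroup.mk' Z).comp T.subtype).ker = Z.subgroupOf T := by
    ext x; simp [Subgroup.mem_subgroupOf]
  have hcyc : IsCyclic (T ⧸ Z.subgroupOf T) := by
    have h2 : ((QuotientGroup.mk' Z).comp T.subtype).range = C := by
      rw [MonoidHom.range_comp, Subgroup.range_subtype, hT,
        Subgroup.map_comap_eq_self_of_surjective (QuotientGroup.mk'_surjective Z)]
    exact (MulEquiv.isCyclic (((QuotientGroup.quotientMulEquivOfEq hker).symm.trans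
      (QuotientGroup.quotientKerEquivRange _)).trans (MulEquiv.subgroupCongr h2))).2 hC
  have hcom : commutator T ≤ Z.subgroupOf T :=
    Subgroup.Normal.quotient_commutative_iff_commutator_le.1 hcyc.commutative
  obtain ⟨η, hη, hηZ⟩ := H31.extends_le_of_isCyclic hZT hcyc h.irr' (h.inv ▸ le_top)
  have hr : IsIrrCharacter (Z.subgroupOf T) fun n : Z.subgroupOf T => η n := by
    have : (fun n : Z.subgroupOf T => η n) = subOf T θ := funext fun n => hηZ ⟨(n : T), n.2⟩
    rw [this]; exact H7.isIrr_subgroupOf hZT h.irr'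
  obtain ⟨n, hn, hn0⟩ := exists_ne_zero_on_coset _ hcom hη hr ⟨x, hxT⟩
  have := Fintype.ofFinite {lam : T →* ℂˣ // ∀ x ∈ Z.subgroupOf T, lam x = 1}
  let ξ : T → ℂ := ∑ lam : {lam : T →* ℂˣ // ∀ x ∈ Z.subgroupOf T, lam x = 1},
    (lam.1 ⟨x, hxT⟩⁻¹ : ℂ) • fun t => η t * lam.1 t
  have hξ : ∀ t, ξ t = η t * ∑ lam : {lam : T →* ℂˣ // ∀ x ∈ Z.subgroupOf T, lam x = 1},
      (lam.1 (⟨x, hxT⟩⁻¹ * t) : ℂ) := fun t => by
    simp only [ξ, Finset.sum_apply, Pi.smul_apply, smul_eq_mul, Finset.mul_sum, map_mul,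
      Units.val_mul]
    exact Finset.sum_congr rfl fun _ _ => by ring
  have hy : x * n ∉ Z := fun hy => hxZ ((Z.mul_mem_cancel_right hn).1 hy)
  have h1 : indFun T ξ (x * n) = 0 := by
    simp only [ξ, H7.indFun_sum, H7.indFun_smul, Finset.sum_apply, Pi.smul_apply, smul_eq_mul]
    refine Finset.sum_eq_zero fun lam _ => ?_
    rw [h.indFun_vanish hZT (isIrrCharacter_mul_hom hη lam.1) ?_ hy, mul_zero]
    refine finsum_ne_zero_of_eq_mul h.irr' one_ne_zero fun z => ?_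
    rw [hηZ, lam.2 _ z.2]; simp
  rw [H7.indFun_apply_eq_of_forall_not_mem T (H7.isClassFunction_sum _ fun lam _ =>
    H7.isClassFunction_smul _ (irr_isClassFunction (isIrrCharacter_mul_hom hη lam.1)))] at h1
  · rw [H7.extendByZero_of_mem T _ (T.mul_mem hxT n.2)] at h1
    change ξ (⟨x, hxT⟩ * n) = 0 at h1
    rw [hξ, inv_mul_cancel_left] at h1
    have h2 : ∀ lam : {lam : T →* ℂˣ // ∀ x ∈ Z.subgroupOf T, lam x = 1}, (lam.1 n : ℂ) = 1 :=
      fun lam => by rw [lam.2 n hn]; rfl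
    have : Nonempty {lam : T →* ℂˣ // ∀ x ∈ Z.subgroupOf T, lam x = 1} := ⟨⟨1, fun _ _ => rfl⟩⟩
    simp [h2, hn0] at h1
  · intro g hg
    rw [H7.extendByZero_eq_zero_iff]
    intro hm
    change ξ _ = 0
    rw [hξ, sum_hom_trivial _ hcom, mul_zero]
    intro h2
    refine hg (hmem g ?_)
    have h3 : x⁻¹ * (g⁻¹ * (x * n) * g) ∈ Z := h2
    have h4 := Z.mul_mem h3 (Z.inv_mem (hZ.conj_mem' _ hn g))
    simpa [mul_assoc] using h4

end H87
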