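import Mathlib
import Cfsg.Agent.Lib.Deg.Cliff
import Cfsg.Agent.Lib.Deg.FS
import Cfsg.Agent.Lib.PGroup.Basic
import Cfsg.Agent.Lib.Core.HallSZ
import Cfsg.Agent.Lib.Core.PCore

/-!
Characters vanishing on all but two conjugacy classes (Gagola).
-/

set_option autoImplicit false

namespace H87

open Cfsg H6
open scoped ComplexConjugate commutatorElement

set_option linter.unusedSectionVars false

variable {G : Type*} [Group G] [Finite G]

/-- `χ` is supported on the normal subgroup `N`, whose nonidentity elements are conjugate. -/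
structure Gag (χ : G → ℂ) (N : Subgroup G) : Prop where
  irr : IsIrrCharacter G χ
  normal : N.Normal
  ne_bot : N ≠ ⊥
  supp : ∀ g, χ g ≠ 0 ↔ g ∈ N
  cj : ∀ x ∈ N, ∀ y ∈ N, x ≠ 1 → y ≠ 1 → IsConj x y
  ker : ∀ ψ, IsIrrCharacter G ψ → ψ ≠ χ → N ≤ charKer ψ

theorem exists_gag (hG : 2 < Nat.card G) (χ : IrrCharacter G)
    (hχ : Nat.card {C : ConjClasses G // ∃ g ∈ C.carrier, (χ : G → ℂ) g ≠ 0} = 2) :
    ∃ N, Gag (χ : G → ℂ) N := by
  classical
  have := Fintype.ofFinite G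
  have h1 := irr_one_ne_zero χ.2
  obtain ⟨⟨C, x, hxC, hx⟩, hC1, hC2⟩ := (Nat.card_eq_two_iff'
    (⟨ConjClasses.mk 1, 1, ConjClasses.mem_carrier_mk, h1⟩ :
      {C : ConjClasses G // ∃ g ∈ C.carrier, (χ : G → ℂ) g ≠ 0})).1 hχ
  rw [ConjClasses.mem_carrier_iff_mk_eq] at hxC
  subst hxC
  have hx1 : x ≠ 1 := fun h => hC1 (Subtype.ext (congrArg ConjClasses.mk h))
  have hsupp : ∀ g, (χ : G → ℂ) g ≠ 0 → g ≠ 1 → IsConj x g := fun g hg hg1 => by
    have := hC2 ⟨ConjClasses.mk g, g, ConjClasses.mem_carrier_mk, hg⟩ fun h =>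
      hg1 (isConj_one_left.1 (ConjClasses.mk_eq_mk_iff_isConj.1 (congrArg Subtype.val h)))
    exact (ConjClasses.mk_eq_mk_iff_isConj.1 (congrArg Subtype.val this)).symm
  set c := (Subgroup.centralizer ({x} : Set G)).index with hc
  have hsum : ∀ ψ, IsIrrCharacter G ψ → Nat.card G * classInner ψ χ =
      ψ 1 * conj ((χ : G → ℂ) 1) + c * (ψ x * conj ((χ : G → ℂ) x)) := fun ψ hψ => by
    have hf : IsClassFunction G (fun g => ψ g * conj ((χ : G → ℂ) g)) := fun a b => by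
      beta_reduce
      rw [irr_isClassFunction hψ, irr_isClassFunction χ.2]
    rw [card_mul_classInner, hc, ← sum_classInd_mul x hf, ← Finset.add_sum_erase _ _
      (Finset.mem_univ 1), ← Finset.add_sum_erase _ (fun g => classInd x g * _)
      (Finset.mem_univ 1), classInd_of_not_isConj (fun h => hx1 (isConj_one_left.1 h)), zero_mul,
      zero_add]
    congr 1
    refine Finset.sum_congr rfl fun g hg => ?_
    by_cases h : IsConj x g
    · rw [classInd_of_isConj h, one_mul]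
    · rw [not_not.1 fun h' => h (hsupp g h' (Finset.mem_erase.1 hg).1), map_zero, mul_zero,
        mul_zero]
  have hne : (χ : G → ℂ) ≠ fun _ => 1 := fun h => by
    have h2 := hsum _ χ.2
    rw [irr_inner_self χ.2, h] at h2
    have h3 : Nat.card G = 1 + c := by
      simp only [map_one, mul_one] at h2
      exact_mod_cast h2
    have h4 : c ∣ 1 + c := h3 ▸ Subgroup.index_dvd_card _
    have := Nat.dvd_one.1 ((Nat.dvd_add_left dvd_rfl).1 h4)
    omega
  have h2 := hsum _ isIrrCharacter_one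
  rw [irr_inner_ne isIrrCharacter_one χ.2 hne.symm] at h2
  have hker : ∀ ψ, IsIrrCharacter G ψ → ψ ≠ χ → ψ x = ψ 1 := fun ψ hψ hψχ => by
    have h3 := hsum ψ hψ
    rw [irr_inner_ne hψ χ.2 hψχ] at h3
    apply mul_left_cancel₀ ((map_ne_zero conj).2 h1)
    linear_combination h3 - ψ x * h2
  obtain ⟨N, hN⟩ : ∃ N : Subgroup G, N = ⨅ ψ : {ψ : G → ℂ // IsIrrCharacter G ψ ∧ ψ ≠ χ},
    charKer ψ.1 := ⟨_, rfl⟩
  have hNn : N.Normal := hN ▸ Subgroup.normal_iInf_normal fun _ => inferInstance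
  have hle : ∀ ψ, IsIrrCharacter G ψ → ψ ≠ χ → N ≤ charKer ψ := fun ψ h h' =>
    hN ▸ iInf_le_of_le ⟨ψ, h, h'⟩ le_rfl
  have hxN : x ∈ N := hN ▸ Subgroup.mem_iInf.2 fun ψ =>
    (mem_charKer (irr_isCharacter ψ.2.1)).2 (hker _ ψ.2.1 ψ.2.2)
  have hs : ∀ g, (χ : G → ℂ) g ≠ 0 ↔ g ∈ N := fun g => by
    by_cases hg : g = 1
    · simp [hg, h1]
    refine ⟨fun h => ?_, fun h h0 => ?_⟩
    · obtain ⟨a, rfl⟩ := isConj_iff.1 (hsupp g h hg)
      exact hNn.conj_mem _ hxN a
    · have h3 := sum_irr_one_mul hg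
      have h4 : ∀ ψ : IrrCharacter G, (ψ : G → ℂ) 1 * (ψ : G → ℂ) g =
          ((if ψ = χ then 0 else charDegree (ψ : G → ℂ) ^ 2 : ℕ) : ℂ) := fun ψ => by
        split_ifs with e
        · rw [e, h0, mul_zero, Nat.cast_zero]
        · rw [(mem_charKer (irr_isCharacter ψ.2)).1 (hle _ ψ.2 (fun h => e (Subtype.ext h)) h),
            Nat.cast_pow, deg_cast', sq]
      rw [Finset.sum_congr rfl fun ψ _ => h4 ψ, ← Nat.cast_sum, Nat.cast_eq_zero,
        Finset.sum_eq_zero_iff] at h3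
      have h5 := h3 ⟨_, isIrrCharacter_one⟩ (Finset.mem_univ _)
      rw [if_neg fun e => hne (congrArg Subtype.val e).symm] at h5
      exact deg_ne_zero isIrrCharacter_one (pow_eq_zero_iff two_ne_zero |>.1 h5)
  refine ⟨N, χ.2, hNn, fun h => hx1 (Subgroup.mem_bot.1 (h ▸ hxN)), hs, fun a ha b hb ha1 hb1 =>
    (hsupp a ((hs a).2 ha) ha1).symm.trans (hsupp b ((hs b).2 hb) hb1), hle⟩

theorem gag_of_supp (hG : 2 < Nat.card G) (χ : IrrCharacter G)
    (hχ : Nat.card {C : ConjClasses G // ∃ g ∈ C.carrier, (χ : G → ℂ) g ≠ 0} = 2)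
    {N : Subgroup G} (hN : ∀ g : G, g ∈ N ↔ (χ : G → ℂ) g ≠ 0) : Gag (χ : G → ℂ) N := by
  obtain ⟨M, hM⟩ := exists_gag hG χ hχ
  rwa [show N = M from Subgroup.ext fun g => (hN g).trans (hM.supp g)]

namespace Gag

variable {χ : G → ℂ} {N : Subgroup G}

theorem not_le (h : Gag χ N) : ¬ N ≤ charKer χ := fun hle =>
  h.ne_bot (eq_bot_of_forall_le_charKer fun ψ hψ => by
    by_cases e : ψ = χ
    · rwa [e]
    · exact h.ker ψ hψ e)

theorem le_of_mem (h : Gag χ N) {K : Subgroup G} (hK : K.Normal) {x : G} (hx : x ∈ N) (hxK : x ∈ K)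
    (hx1 : x ≠ 1) : N ≤ K := fun y hy => by
  by_cases hy1 : y = 1
  · rw [hy1]; exact one_mem _
  obtain ⟨a, rfl⟩ := isConj_iff.1 (h.cj x hx y hy hx1 hy1)
  exact hK.conj_mem _ hxK a

theorem faithful (h : Gag χ N) {g : G} (hg : χ g = χ 1) : g = 1 := by
  by_contra h1
  exact h.not_le (h.le_of_mem inferInstance ((h.supp g).1 (hg ▸ irr_one_ne_zero h.irr))
    ((mem_charKer (irr_isCharacter h.irr)).2 hg) h1)

theorem eq_zero (h : Gag χ N) {g : G} (hg : g ∉ N) : χ g = 0 :=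
  not_not.1 fun h' => hg ((h.supp g).1 h')

theorem le_of_ne_bot (h : Gag χ N) {K : Subgroup G} (hK : K.Normal) (hK1 : K ≠ ⊥) : N ≤ K := by
  classical
  by_contra hle
  have := Fintype.ofFinite K
  have h1 : ∑ k : K, χ k = χ 1 := by
    rw [Finset.sum_eq_single 1 (fun k _ hk => h.eq_zero fun hN => hle
      (h.le_of_mem hK hN k.2 fun e => hk (Subtype.ext e))) (by simp)]
    rfl
  rw [sum_normal_eq_zero h.irr K fun hle => hK1 (eq_bot_iff.2 fun k hk =>
    h.faithful ((mem_charKer (irr_isCharacter h.irr)).1 (hle hk)))] at h1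
  exact irr_one_ne_zero h.irr h1.symm

theorem exists_mem (h : Gag χ N) : ∃ x ∈ N, x ≠ 1 := (Subgroup.ne_bot_iff_exists_ne_one.1
  h.ne_bot).elim fun x hx => ⟨x, x.2, fun e => hx (Subtype.ext e)⟩

theorem orderOf_eq (h : Gag χ N) {p : ℕ} (hp : p.Prime) (hd : p ∣ Nat.card N) {x : G} (hx : x ∈ N)
    (hx1 : x ≠ 1) : orderOf x = p := by
  have := Fact.mk hp
  obtain ⟨y, hy⟩ := exists_prime_orderOf_dvd_card' p hd
  rw [← Subgroup.orderOf_coe] at hy
  obtain ⟨a, rfl⟩ := isConj_iff.1 (h.cj y y.2 x hx (fun e => hp.one_lt.ne' (by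
    rw [← hy, e, orderOf_one])) hx1)
  rw [← hy, ← MulAut.conj_apply, MulEquiv.orderOf_eq]

theorem exists_prime (h : Gag χ N) : ∃ p : ℕ, p.Prime ∧ p ∣ Nat.card N ∧ ∀ x ∈ N, x ^ p = 1 := by
  obtain ⟨p, hp, hd⟩ := Nat.exists_prime_and_dvd (mt Subgroup.card_eq_one.1 h.ne_bot)
  refine ⟨p, hp, hd, fun x hx => ?_⟩
  by_cases hx1 : x = 1
  · rw [hx1, one_pow]
  · rw [← h.orderOf_eq hp hd hx hx1, pow_orderOf_eq_one]

theorem comm (h : Gag χ N) : ∀ a ∈ N, ∀ b ∈ N, a * b = b * a := by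
  obtain ⟨p, hp, -, hN⟩ := h.exists_prime
  have := Fact.mk hp
  have := h.normal
  obtain ⟨z, hz1, hz2, hz3⟩ := H5.exists_mem_centralizer_orderOf_eq (H3.isPGroup_of_pow_eq_one hN)
    le_rfl Subgroup.le_normalizer h.ne_bot
  have := h.le_of_mem (K := Subgroup.centralizer (N : Set G)) inferInstance hz1 hz2
    (fun e => hp.one_lt.ne' (by rw [← hz3, e, orderOf_one]))
  exact fun a ha b hb => this hb a ha

theorem dvd_card {p : ℕ} [hp : Fact p.Prime] (h : Gag χ N) (hN : IsPGroup p N) : p ∣ Nat.card N := by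
  obtain ⟨k, hk⟩ := IsPGroup.iff_card.1 hN
  rcases k with _ | k
  · exact absurd (Subgroup.card_eq_one.1 hk) h.ne_bot
  · exact hk ▸ dvd_pow_self p k.succ_ne_zero

open Classical in
theorem filter_eq (h : Gag χ N) : (Finset.univ.filter fun ψ : IrrCharacter G =>
    N ≤ charKer (ψ : G → ℂ)) = Finset.univ.erase (⟨χ, h.irr⟩ : IrrCharacter G) := by
  ext ψ
  simp only [Finset.mem_filter, Finset.mem_univ, true_and, Finset.mem_erase, and_true]
  exact ⟨fun hle e => h.not_le (by rwa [e] at hle), fun hne =>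
    h.ker _ ψ.2 fun e => hne (Subtype.ext e)⟩

theorem isConj_mul (h : Gag χ N) {y n : G} (hy : y ∉ N) (hn : n ∈ N) : IsConj y (y * n) := by
  refine (isConj_iff_irr _ _).2 fun ψ => ?_
  by_cases e : (ψ : G → ℂ) = χ
  · rw [e, h.eq_zero hy, h.eq_zero fun h' => hy ((N.mul_mem_cancel_right hn).1 h')]
  · exact (char_mul_right_of_eq_one (irr_isCharacter ψ.2)
      ((mem_charKer (irr_isCharacter ψ.2)).1 (h.ker _ ψ.2 e hn)) y).symm

theorem card_centralizer [N.Normal] (h : Gag χ N) {y : G} (hy : y ∉ N) :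
    Nat.card (Subgroup.centralizer ({y} : Set G)) =
      Nat.card (Subgroup.centralizer ({(y : G ⧸ N)} : Set (G ⧸ N))) := by
  classical
  have h1 := sum_ker_mul_conj_self N y
  have h2 := column_orthogonality_self y
  rw [← Finset.add_sum_erase _ _ (Finset.mem_univ ⟨χ, h.irr⟩), ← h.filter_eq] at h2
  simp only [h.eq_zero hy, zero_mul, zero_add] at h2
  exact_mod_cast h2.symm.trans h1

theorem isPGroup_centralizer {p : ℕ} [hp : Fact p.Prime] (h : Gag χ N) (hN : IsPGroup p N) {x : G}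
    (hx : x ∈ N) (hx1 : x ≠ 1) : IsPGroup p (Subgroup.centralizer ({x} : Set G)) := by
  refine H1.isPiSubgroup_singleton_iff.1 fun q hq hd => ?_
  by_contra hqp
  have := Fact.mk hq
  obtain ⟨y, hy⟩ := exists_prime_orderOf_dvd_card' q hd
  rw [← Subgroup.orderOf_coe] at hy
  have hxp := h.orderOf_eq hp.out (h.dvd_card hN) hx hx1
  have hyN : (y : G) ∉ N := fun hyN => hqp (by
    rw [← hy, h.orderOf_eq hp.out (h.dvd_card hN) hyN fun e => hq.one_lt.ne' (by
      rw [← hy, e, orderOf_one])]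
    rfl)
  have hc : Commute (y : G) x := Subgroup.mem_centralizer_singleton_iff.1 y.2
  obtain ⟨a, ha⟩ := isConj_iff.1 (h.isConj_mul hyN hx)
  have h1 := hc.orderOf_mul_eq_mul_orderOf_of_coprime
    (by rw [hy, hxp]; exact (Nat.coprime_primes hq hp.out).2 hqp)
  rw [← ha, ← MulAut.conj_apply, MulEquiv.orderOf_eq, hxp] at h1
  exact hp.out.one_lt.ne' ((left_eq_mul₀ (orderOf_pos _).ne').1 h1)

theorem index_centralizer (h : Gag χ N) {x : G} (hx : x ∈ N) (hx1 : x ≠ 1) :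
    (Subgroup.centralizer ({x} : Set G)).index + 1 = Nat.card N := by
  classical
  have := Fintype.ofFinite G
  have h1 := sum_classInd_mul x (f := fun _ => 1) fun _ _ => rfl
  have h2 : ∀ g, classInd x g * 1 = if g ∈ (Finset.univ.filter (· ∈ N)).erase 1 then 1 else 0 :=
    fun g => by
      simp only [Finset.mem_erase, Finset.mem_filter, Finset.mem_univ, true_and, mul_one]
      split_ifs with e
      · exact classInd_of_isConj (h.cj x hx g e.2 hx1 e.1)
      · refine classInd_of_not_isConj fun hc => e ⟨fun e => hx1 (isConj_one_left.1 (e ▸ hc)), ?_⟩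
        obtain ⟨a, rfl⟩ := isConj_iff.1 hc
        exact h.normal.conj_mem _ hx a
  rw [Finset.sum_congr rfl fun g _ => h2 g, Finset.sum_ite_mem, Finset.univ_inter,
    Finset.sum_const, nsmul_eq_mul, mul_one, mul_one, Nat.cast_inj] at h1
  rw [← h1, Finset.card_erase_add_one (by simp), Nat.card_eq_fintype_card, Fintype.card_subtype]

theorem not_dvd_index {p : ℕ} [hp : Fact p.Prime] (h : Gag χ N) (hN : IsPGroup p N) {n : ℕ}
    (hn : n + 1 = Nat.card N) : ¬ p ∣ n := fun hd =>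
  hp.out.one_lt.ne' (Nat.dvd_one.1 ((Nat.dvd_add_right hd).1 (hn ▸ h.dvd_card hN)))

theorem exists_sylow {p : ℕ} [hp : Fact p.Prime] (h : Gag χ N) (hN : IsPGroup p N) {x : G}
    (hx : x ∈ N) (hx1 : x ≠ 1) : ∃ P : Sylow p G, Subgroup.centralizer ({x} : Set G) = P :=
  ⟨(h.isPGroup_centralizer hN hx hx1).toSylow
    (h.not_dvd_index hN (h.index_centralizer hx hx1)), rfl⟩

/-- Elements that are not `p`-elements act without fixed points on `N`. -/
theorem fpf {p : ℕ} [hp : Fact p.Prime] (h : Gag χ N) (hN : IsPGroup p N) {u : G}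
    (hu : ∀ k, u ^ p ^ k ≠ 1) : ∀ n ∈ N, u * n = n * u → n = 1 := fun n hn e => by
  by_contra h1
  obtain ⟨k, hk⟩ := h.isPGroup_centralizer hN hn h1 ⟨u, Subgroup.mem_centralizer_singleton_iff.2 e⟩
  exact hu k (congrArg Subtype.val hk)

theorem apply_eq (h : Gag χ N) {x : G} (hx : x ∈ N) (hx1 : x ≠ 1) :
    ((Nat.card N : ℂ) - 1) * χ x = - χ 1 := by
  classical
  have := Fintype.ofFinite N
  have := h.normal
  have h1 := sum_normal_eq_zero h.irr N h.not_le
  rw [← Finset.add_sum_erase _ _ (Finset.mem_univ 1), Finset.sum_congr rfl fun (n : N) hn =>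
    classFun_of_isConj (irr_isClassFunction h.irr) (h.cj n n.2 x hx
      (fun e => (Finset.mem_erase.1 hn).1 (Subtype.ext e)) hx1), Finset.sum_const,
    Finset.card_erase_of_mem (Finset.mem_univ _), Finset.card_univ, nsmul_eq_mul,
    Nat.cast_sub Fintype.card_pos, ← Nat.card_eq_fintype_card] at h1
  simp only [OneMemClass.coe_one, Nat.cast_one] at h1
  linear_combination h1

theorem index_inertia [N.Normal] (h : Gag χ N) {μ : N → ℂ} (hμ : IsIrrCharacter N μ)
    (h1 : μ ≠ fun _ => 1) : (H7.inertia μ).index + 1 = Nat.card N := by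
  classical
  have := Fintype.ofFinite G
  have := Fintype.ofFinite N
  have hμ1 : μ 1 = 1 := (deg_eq_one_iff (irr_isCharacter hμ)).1
    (deg_eq_one_of_comm (fun a b => Subtype.ext (h.comm a a.2 b b.2)) hμ)
  obtain ⟨x, hx, hx1⟩ := h.exists_mem
  have hax := h.apply_eq hx hx1
  have h2 := card_mul_classInner (fun n : N => χ n) μ
  have h3 := card_mul_classInner (fun _ : N => 1) μ
  rw [irr_inner_ne isIrrCharacter_one hμ h1.symm, ← Finset.add_sum_erase _ _
    (Finset.mem_univ 1)] at h3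
  rw [← Finset.add_sum_erase _ _ (Finset.mem_univ 1), Finset.sum_congr rfl fun n hn =>
    congrArg (· * conj (μ n)) (classFun_of_isConj (irr_isClassFunction h.irr) (h.cj n n.2 x hx
      (fun e => (Finset.mem_erase.1 hn).1 (Subtype.ext e)) hx1)), ← Finset.mul_sum] at h2
  simp only [hμ1, map_one, mul_one, one_mul, mul_zero, OneMemClass.coe_one] at h2 h3
  have h4 : ((Nat.card N : ℂ) - 1) * classInner (fun n : N => χ n) μ = χ 1 := by
    apply mul_left_cancel₀ (card_ne_zero (G := N))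
    linear_combination ((Nat.card N : ℂ) - 1) * h2 - ((Nat.card N : ℂ) - 1) * χ x * h3 - hax
  have hne : classInner (fun n : N => χ n) μ ≠ 0 := fun e =>
    irr_one_ne_zero h.irr (by rw [← h4, e, mul_zero])
  have h5 := H7.clifford_degree h.irr hμ hne
  rw [hμ1, mul_one, ← h4, mul_comm] at h5
  have h6 := mul_left_cancel₀ hne h5
  have : ((H7.inertia μ).index : ℂ) + 1 = Nat.card N := by rw [← h6]; ring
  exact_mod_cast this

theorem isPGroup_inertia {p : ℕ} [hp : Fact p.Prime] [N.Normal] (h : Gag χ N) (hN : IsPGroup p N)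
    {μ : N → ℂ} (hμ : IsIrrCharacter N μ) (h1 : μ ≠ fun _ => 1) :
    IsPGroup p (H7.inertia μ) := fun ⟨u, hu⟩ => by
  by_contra hk
  push Not at hk
  obtain ⟨lam, rfl⟩ := irr_eq_hom_of_comm (fun a b => Subtype.ext (h.comm a a.2 b b.2)) hμ
  refine h1 (funext fun n => ?_)
  obtain ⟨m, hm, e⟩ := exists_commutator_eq_of_fpf (fun k hk => h.normal.conj_mem k hk u)
    (h.fpf hN fun k e => hk k (Subtype.ext e)) n.2
  have h2 := H7.mem_inertia'.1 hu ⟨m⁻¹, inv_mem hm⟩
  have h3 : n = ⟨m, hm⟩ * ⟨u * m⁻¹ * u⁻¹, h.normal.conj_mem _ (inv_mem hm) u⟩ :=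
    Subtype.ext (by rw [← e]; simp [mul_assoc])
  rw [h3, map_mul, Units.val_mul]
  erw [h2]
  rw [← Units.val_mul, ← map_mul, show (⟨m, hm⟩ * ⟨m⁻¹, inv_mem hm⟩ : N) = 1 from
    Subtype.ext (mul_inv_cancel m), map_one, Units.val_one]

/-- Elements commuting with `P` modulo a proper subgroup of `N` lie in `N`. -/
theorem mem_of_commutator {p : ℕ} [hp : Fact p.Prime] (h : Gag χ N) (hN : IsPGroup p N)
    (P : Sylow p G) {Z : Subgroup G} (hZ : Z < N) {y : G} (hy : ∀ g ∈ (P : Subgroup G), ⁅g, y⁆ ∈ Z) :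
    y ∈ N := by
  classical
  by_contra hyN
  have := h.normal
  set C := Subgroup.centralizer ({y} : Set G)
  have h1 : C.relIndex P ≤ Nat.card Z := by
    rw [Subgroup.relIndex, Subgroup.index]
    refine Nat.card_le_card_of_injective (fun q => (⟨⁅((q.out : P) : G), y⁆, hy _ q.out.2⟩ : Z))
      fun q r e => ?_
    rw [← q.out_eq', ← r.out_eq', QuotientGroup.eq, Subgroup.mem_subgroupOf,
      Subgroup.mem_centralizer_singleton_iff]
    have e' := congrArg Subtype.val e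
    simp only [commutatorElement_def, mul_left_inj] at e'
    simp only [Subgroup.coe_mul, InvMemClass.coe_inv]
    calc _ = ((q.out : P) : G)⁻¹ * (((r.out : P) : G) * y * ((r.out : P) : G)⁻¹) * (r.out : P) := by
          group
      _ = _ := by rw [← e']; group
  have h2 : Nat.card ↥(C ⊓ P) ∣ N.index := by
    refine (Subgroup.card_dvd_of_le inf_le_left).trans ?_
    rw [h.card_centralizer hyN]
    exact Subgroup.card_subgroup_dvd_card _
  have hNP : N ≤ P := hN.le_sylow_of_normal P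
  rw [← Subgroup.relIndex_mul_index hNP] at h2
  obtain ⟨k, hk⟩ := IsPGroup.iff_card.1 (P.isPGroup'.to_inf_right (H := C))
  have h3 : Nat.card ↥(C ⊓ P) ≤ N.relIndex P := Nat.le_of_dvd (Nat.pos_of_ne_zero Subgroup.index_ne_zero_of_finite)
    ((show Nat.Coprime (Nat.card ↥(C ⊓ P)) _ from hk ▸ Nat.Coprime.pow_left k
      ((Nat.Prime.coprime_iff_not_dvd hp.out).2 P.not_dvd_index)).dvd_of_dvd_mul_right h2)
  have h4 := H3.relIndex_mul_card_inf C P
  have h5 := H3.relIndex_mul_card hNP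
  have h6 := H3.card_lt_card_of_lt hZ
  have h7 : 0 < N.relIndex P := Nat.pos_of_ne_zero Subgroup.index_ne_zero_of_finite
  have h8 := Nat.mul_le_mul h1 h3
  nlinarith

theorem exists_centralizer_eq {p : ℕ} [hp : Fact p.Prime] (h : Gag χ N) (hN : IsPGroup p N)
    (P : Sylow p G) : ∃ x ∈ N, x ≠ 1 ∧ Subgroup.centralizer ({x} : Set G) = P := by
  have := h.normal
  obtain ⟨z, hz1, hz2, hz3⟩ := H5.exists_mem_centralizer_orderOf_eq P.isPGroup'
    (hN.le_sylow_of_normal P) Subgroup.le_normalizer_of_normal h.ne_bot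
  have hz : z ≠ 1 := fun e => hp.out.one_lt.ne' (by rw [← hz3, e, orderOf_one])
  exact ⟨z, hz1, hz, P.is_maximal' (h.isPGroup_centralizer hN hz1 hz) fun g hg =>
    Subgroup.mem_centralizer_singleton_iff.2 (hz2 g hg)⟩

theorem centralizer_le_pCore {p : ℕ} [hp : Fact p.Prime] (h : Gag χ N) (hN : IsPGroup p N) :
    Subgroup.centralizer (N : Set G) ≤ pCore p G := by
  have := h.normal
  obtain ⟨x, hx, hx1⟩ := h.exists_mem
  exact H1.le_pCore ((h.isPGroup_centralizer hN hx hx1).to_le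
    (Subgroup.centralizer_le (Set.singleton_subset_iff.2 hx)))

/-- If `N = O_p(G)` then `N` is a Sylow `p`-subgroup. -/
theorem not_dvd_index_of_eq_pCore {p : ℕ} [hp : Fact p.Prime] (h : Gag χ N) (hN : IsPGroup p N)
    (hS : ∀ [N.Normal] (t : G ⧸ N), orderOf t = 2 →
      (∀ K : Subgroup (G ⧸ N), K.Normal → IsPGroup 2 K → t ∉ K) →
      ∃ u : G ⧸ N, u ≠ 1 ∧ Odd (orderOf u) ∧ t * u * t⁻¹ = u⁻¹)
    (he : N = pCore p G) : ¬ p ∣ N.index := fun hd => by
  have := h.normal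
  have hC : ∀ g, (∀ n ∈ N, n * g = g * n) → g ∈ N := fun g hg =>
    he ▸ h.centralizer_le_pCore hN hg
  obtain ⟨t, ht⟩ := exists_prime_orderOf_dvd_card' (G := G ⧸ N) p hd
  have ht1 : t ≠ 1 := fun e => hp.out.one_lt.ne' (by rw [← ht, e, orderOf_one])
  by_cases hp2 : p = 2
  · subst hp2
    obtain ⟨u, hu1, hu2, hu3⟩ := hS t ht fun K hK hK2 htK => by
      have h1 := H1.le_pCore (p := 2) (hK2.comap_of_ker_isPGroup (QuotientGroup.mk' N)
        (by rwa [QuotientGroup.ker_mk']))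
      obtain ⟨t, rfl⟩ := QuotientGroup.mk_surjective t
      exact ht1 ((QuotientGroup.eq_one_iff t).2 (he ▸ h1 htK))
    obtain ⟨t, rfl⟩ := QuotientGroup.mk_surjective t
    obtain ⟨u, rfl⟩ := QuotientGroup.mk_surjective u
    have hf := h.fpf hN (u := u⁻¹) fun k e => hu1 (orderOf_eq_one_iff.1
      (Nat.Coprime.eq_one_of_dvd (hu2.coprime_two_right.pow_right k) (orderOf_dvd_of_pow_eq_one (by
        rw [← QuotientGroup.mk_pow, ← inv_inv u, inv_pow, e, inv_one, QuotientGroup.mk_one]))))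
    obtain ⟨m, hm, e⟩ := exists_commutator_eq_of_fpf (fun k hk => h.normal.conj_mem k hk u⁻¹) hf
      (k := t * u * t⁻¹ * u) ((QuotientGroup.eq_one_iff _).1 (by simp [hu3]))
    have e1 : m⁻¹ * t * u * (m⁻¹ * t)⁻¹ = u⁻¹ := by
      calc _ = m⁻¹ * (t * u * t⁻¹ * u) * u⁻¹ * m := by group
        _ = _ := by rw [← e]; group
    have hs : m⁻¹ * t ∉ N := fun h' => ht1 ((QuotientGroup.eq_one_iff t).2
      ((N.mul_mem_cancel_left (inv_mem hm)).1 h'))
    have hs2 : m⁻¹ * t * (m⁻¹ * t) ∈ N := (QuotientGroup.eq_one_iff _).1 (by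
      have := pow_orderOf_eq_one (t : G ⧸ N)
      rw [ht, sq] at this
      simp [(QuotientGroup.eq_one_iff m).2 hm, this])
    generalize m⁻¹ * t = s at e1 hs hs2
    have hs3 : s * s = 1 := hf _ hs2 (by
      have e2 : s * u⁻¹ * s⁻¹ = u := by rw [← conj_inv, e1, inv_inv]
      calc _ = s * (s * u⁻¹ * s⁻¹) * s := by rw [e2, ← e1]; group
        _ = _ := by group)
    refine hs (hC s fun n hn => ?_)
    obtain ⟨a, ha⟩ := isConj_iff.1 (h.isConj_mul hs hn)
    have h1 : s * n * (s * n) = 1 := by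
      rw [← ha]
      calc _ = a * (s * s) * a⁻¹ := by group
        _ = 1 := by rw [hs3]; group
    have h2 : n * n = 1 := by
      by_cases hn1 : n = 1
      · rw [hn1, one_mul]
      · rw [← sq, ← h.orderOf_eq hp.out (h.dvd_card hN) hn hn1, pow_orderOf_eq_one]
    have h3 := inv_eq_of_mul_eq_one_right h1
    rwa [mul_inv_rev, inv_eq_of_mul_eq_one_right h2, inv_eq_of_mul_eq_one_right hs3] at h3
  · obtain ⟨x, hx, hx1⟩ := h.exists_mem
    obtain ⟨k, hk⟩ := IsPGroup.iff_card.1 hN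
    have hodd : Odd p := hp.out.odd_of_ne_two hp2
    have h2 : 2 ∣ Nat.card G := by
      refine Dvd.dvd.trans ?_ (Subgroup.centralizer ({x} : Set G)).index_dvd_card
      have h1 := h.index_centralizer hx hx1
      have := Nat.odd_iff.1 (hodd.pow (n := k))
      omega
    obtain ⟨s, hs⟩ := exists_prime_orderOf_dvd_card' 2 h2
    have hss : s * s = 1 := by rw [← sq, ← hs, pow_orderOf_eq_one]
    have hf := h.fpf hN (u := s) fun j e => (hodd.pow (n := j)).not_two_dvd_nat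
      (hs ▸ orderOf_dvd_of_pow_eq_one e)
    have hsurj := fun n (hn : n ∈ N) =>
      exists_commutator_eq_of_fpf (fun k hk => h.normal.conj_mem k hk s) hf hn
    have hinv : ∀ n ∈ N, s * n * s⁻¹ = n⁻¹ := fun n hn => by
      obtain ⟨m, -, rfl⟩ := hsurj n hn
      calc _ = s * m * (s * s) * s⁻¹ * m⁻¹ * (s * s)⁻¹ := by group
        _ = _ := by rw [hss]; group
    have hdec : ∀ g, ∃ m ∈ N, ∃ c, g = m * c ∧ c * s = s * c := fun g => by
      obtain ⟨m, hm, e⟩ := hsurj (g * s * g⁻¹ * s⁻¹) (hC _ fun n hn => by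
        have e1 := hinv _ (h.normal.conj_mem _ (inv_mem hn) g⁻¹)
        have e2 := hinv _ (inv_mem hn)
        calc _ = g * (g⁻¹ * n⁻¹ * g⁻¹⁻¹)⁻¹ * s * g⁻¹ * s⁻¹ := by group
          _ = g * s * g⁻¹ * s⁻¹ * (s * n⁻¹ * s⁻¹) := by rw [← e1]; group
          _ = _ := by rw [e2, inv_inv])
      refine ⟨m, hm, m⁻¹ * g, by group, ?_⟩
      calc _ = m⁻¹ * (g * s * g⁻¹ * s⁻¹) * s * g := by group
        _ = _ := by rw [← e]; group
    obtain ⟨t, rfl⟩ := QuotientGroup.mk_surjective t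
    obtain ⟨m, hm, y, rfl, hy⟩ := hdec t
    rw [QuotientGroup.mk_mul, (QuotientGroup.eq_one_iff m).2 hm, one_mul] at ht ht1
    have hyN : y ∉ N := fun e => ht1 ((QuotientGroup.eq_one_iff y).2 e)
    have hyp : y ^ p = 1 := hf _ ((QuotientGroup.eq_one_iff _).1 (by
      rw [QuotientGroup.mk_pow, ← ht, pow_orderOf_eq_one]))
      ((show Commute y s from hy).symm.pow_right p)
    obtain ⟨z, hz1, hz2, -, hz3⟩ := H5.exists_mem_centralizer_of_normalizes
      (P := Subgroup.zpowers y) (IsPGroup.of_card (n := 1) (by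
        rw [Nat.card_zpowers, pow_one, orderOf_eq_prime hyp fun e => hyN (e ▸ one_mem N)])) hN
      Subgroup.le_normalizer_of_normal h.ne_bot
    have hz4 := hz2 y (Subgroup.mem_zpowers y)
    let F : N → N := fun m => ⟨y⁻¹ * m * y⁻¹⁻¹ * m⁻¹,
      mul_mem (h.normal.conj_mem _ m.2 y⁻¹) (inv_mem m.2)⟩
    have hF : Function.Surjective F := fun n => by
      obtain ⟨a, ha⟩ := isConj_iff.1 (h.isConj_mul hyN n.2)
      obtain ⟨m, hm, c, rfl, hc⟩ := hdec a
      have h3 : c * y * c⁻¹ * y⁻¹ = 1 := hf _ (by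
        rw [show c * y * c⁻¹ * y⁻¹ = m⁻¹ * (m * c * y * (m * c)⁻¹) * m * y⁻¹ by group, ha,
          show m⁻¹ * (y * n) * m * y⁻¹ = m⁻¹ * (y * (n * m) * y⁻¹) by group]
        exact mul_mem (inv_mem hm) (h.normal.conj_mem _ (mul_mem n.2 hm) y))
        (((((show Commute c s from hc).mul_left hy).mul_left
          (show Commute c s from hc).inv_left).mul_left (show Commute y s from hy).inv_left).symm)
      refine ⟨⟨m, hm⟩, Subtype.ext ?_⟩
      show y⁻¹ * m * y⁻¹⁻¹ * m⁻¹ = n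
      calc _ = y⁻¹ * m * (c * y * c⁻¹ * y⁻¹) * y * m⁻¹ := by rw [h3]; group
        _ = y⁻¹ * (m * c * y * (m * c)⁻¹) := by group
        _ = _ := by rw [ha]; group
    have := Finite.injective_iff_surjective.2 hF (a₁ := ⟨z, hz1⟩) (a₂ := 1) (Subtype.ext (by
      show y⁻¹ * z * y⁻¹⁻¹ * z⁻¹ = y⁻¹ * 1 * y⁻¹⁻¹ * 1⁻¹
      rw [inv_inv, mul_assoc y⁻¹, ← hz4]; group))
    exact hp.out.one_lt.ne' (by rw [← hz3, show z = 1 from congrArg Subtype.val this, orderOf_one])

end Gag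

end H87
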