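import Mathlib
import Cfsg.Agent.Lib.Deg.FewDeg2
import Cfsg.Agent.Lib.Block.Apps
import Cfsg.Agent.S4441

/-!
Groups all of whose nonlinear character degrees are prime.
-/

set_option autoImplicit false

namespace H87

open Cfsg H6
open scoped ComplexConjugate commutatorElement Pointwise

set_option linter.unusedSectionVars false

universe u

variable {G : Type*} [Group G] [Finite G]

theorem card_dvd_deg_of_vanish {χ : G → ℂ} (hχ : IsCharacter G χ) (P : Subgroup G)
    (h : ∀ x ∈ P, x ≠ 1 → χ x = 0) : Nat.card P ∣ charDegree χ := by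
  have := Fintype.ofFinite P
  obtain ⟨e, he⟩ := char_inner_nat (isCharacter_restrict P hχ) isCharacter_one
  have h1 := card_mul_classInner (G := P) (fun x => χ x) fun _ => 1
  rw [he, Finset.sum_eq_single 1 (fun y _ hy => by simp [h y y.2 fun e => hy (Subtype.ext e)])
    (by simp), map_one, mul_one, Subgroup.coe_one, ← deg_cast hχ] at h1
  exact ⟨e, by exact_mod_cast h1.symm⟩

/-- A faithful irreducible character of prime degree `p` of a centerless group forces a Sylow
`p`-subgroup of order `p`. -/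
theorem card_sylow_of_deg_prime {p : ℕ} [hp : Fact p.Prime] {χ : G → ℂ} (hχ : IsIrrCharacter G χ)
    (hd : charDegree χ = p) (hk : charKer χ = ⊥) (hz : Subgroup.center G = ⊥) (P : Sylow p G) :
    Nat.card P = p := by
  have hP : p ∣ Nat.card P := P.dvd_card_of_dvd_card (hd ▸ deg_dvd_card hχ)
  have h1 : ∀ θ, IsIrrCharacter P θ → Over (P : Subgroup G) χ θ → charDegree θ = 1 :=
    fun θ hθ ho => by
      obtain ⟨k, hk'⟩ := deg_pow_of_isPGroup P.isPGroup' hθ
      refine hk'.trans (k.eq_zero_or_pos.elim (fun e => by rw [e, pow_zero]) fun h0 => ?_)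
      have h2 := ho.eq_of_deg_le (irr_isCharacter hχ) hθ
        (by rw [hd, hk']; exact Nat.le_self_pow h0.ne' p)
      have : Nontrivial P := Finite.one_lt_card_iff_nontrivial.1
        (hp.out.one_lt.trans_le (Nat.le_of_dvd Nat.card_pos hP))
      have := P.isPGroup'.center_nontrivial
      obtain ⟨⟨z, h3⟩, h4⟩ := exists_ne (1 : Subgroup.center (P : Subgroup G))
      have h5 := norm_eq_of_mem_center hθ h3
      rw [← h2, ← h2] at h5
      exact absurd (Subtype.ext (Subtype.ext
        (show (z : G) = 1 from hz.le (mem_center_of_norm_eq hχ hk h5)))) h4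
  have h2 : ∀ a ∈ (P : Subgroup G), ∀ b ∈ (P : Subgroup G), a * b = b * a := fun a ha b hb => by
    have := Fintype.ofFinite P
    obtain ⟨m, hm1, hm2, -⟩ := char_decomp (isCharacter_restrict (P : Subgroup G)
      (irr_isCharacter hχ))
    refine commutatorElement_eq_one_iff_mul_comm.1 (hk.le ((mem_charKer
      (irr_isCharacter hχ)).2 ((hm2 ⁅(⟨a, ha⟩ : P), (⟨b, hb⟩ : P)⁆).trans (Eq.trans ?_ (hm2 1).symm))))
    refine Finset.sum_congr rfl fun θ _ => (eq_or_ne (m θ) 0).elim (fun e => by simp [e]) fun e => ?_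
    rw [(mem_charKer (irr_isCharacter θ.2)).1 (commutator_le_charKer_of_deg_one
      (irr_isCharacter θ.2) (h1 _ θ.2 (over_iff.2 (by rw [hm1]; exact_mod_cast e)))
      (Subgroup.commutator_mem_commutator trivial trivial))]
  refine Nat.dvd_antisymm ((card_dvd_deg_of_vanish (irr_isCharacter hχ) _
    fun x hx hx1 => ?_).trans hd.dvd) hP
  refine (H8.irr_eq_zero_or_norm_eq hχ (by rw [← hd, irr_deg_cast hχ]) x
    ((Nat.Prime.coprime_iff_not_dvd hp.out).2 fun h => P.not_dvd_index (h.trans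
      (Subgroup.index_dvd_of_le fun y hy => Subgroup.mem_centralizer_singleton_iff.2
        (h2 y hy x hx))))).resolve_right fun h => hx1 (hz.le (mem_center_of_norm_eq hχ hk h))

theorem isSolvable_of_prime_deg_aux (k : ℕ) : ∀ (G : Type u) [Group G] [Finite G],
    Nat.card G = k → (∀ χ, IsIrrCharacter G χ → charDegree χ ≠ 1 → (charDegree χ).Prime) →
      Group.IsSolvable G := by
  induction k using Nat.strong_induction_on with
  | _ k ih =>
  rintro G _ _ rfl h
  by_cases hs : ∃ N : Subgroup G, N.Normal ∧ N ≠ ⊥ ∧ N ≠ ⊤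
  · obtain ⟨N, hN, h1, h2⟩ := hs
    refine H1.isSolvable_of_normal_of_quotient N (ih _ (H3.card_lt_of_ne_top N h2) N rfl
      fun θ hθ h3 => ?_) (ih _ (H3.card_quotient_lt N h1) _ rfl fun θ hθ => h _ (isIrr_infl N hθ))
    obtain ⟨χ, hχ, hd⟩ := exists_deg_dvd N hθ
    have := h χ hχ fun e => h3 (Nat.dvd_one.1 (e ▸ hd))
    rwa [((Nat.dvd_prime this).1 hd).resolve_left h3]
  have hs' : ∀ N : Subgroup G, N.Normal → N = ⊥ ∨ N = ⊤ := fun N hN => by
    by_contra! hn
    exact hs ⟨N, hN, hn⟩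
  by_contra hns
  have hab : ¬ ∀ a b : G, a * b = b * a := fun hc => hns (isSolvable_of_comm hc)
  have hz : Subgroup.center G = ⊥ := (hs' _ inferInstance).resolve_right fun e =>
    hab fun a b => Subgroup.mem_center_iff.1 (e ▸ Subgroup.mem_top b) a
  have hc : commutator G = ⊤ := (hs' _ inferInstance).resolve_left fun e => hab fun a b =>
    commutatorElement_eq_one_iff_mul_comm.1 (e.le (Subgroup.commutator_mem_commutator trivial trivial))
  obtain ⟨p, ⟨χ, rfl⟩, hmax⟩ := Set.exists_max_image (charDegrees G) id finite_charDegrees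
    ⟨1, one_mem_charDegrees⟩
  set p := charDegree (χ : G → ℂ) with hpd
  have h5 : 3 < p := not_le.1 fun hle => hns (isSolvable_of_ncard_le ((Set.ncard_le_ncard
    (t := {1, 2, 3}) (fun d hd => by
      have h1 : d ≤ p := hmax d hd
      obtain ⟨θ, rfl⟩ := hd
      have := deg_pos θ.2
      simp only [Set.mem_insert_iff, Set.mem_singleton_iff]; omega)).trans
        (Set.ncard_eq_three.2 ⟨1, 2, 3, by simp⟩).le))
  have hp := Fact.mk (h _ χ.2 (by omega) : p.Prime)
  obtain ⟨P⟩ : Nonempty (Sylow p G) := inferInstance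
  have hP := card_sylow_of_deg_prime χ.2 hpd.symm ((hs' _ (charKer_normal _)).resolve_right fun e => by
    rw [(charKer_eq_top_iff χ.2).1 e, deg_one] at hpd; omega) hz P
  obtain ⟨M, hM⟩ := H33.exists_isPModular p
  have := Fintype.ofFinite G
  obtain ⟨X, Y, -, -, h1, -, εX, -, h2, -⟩ :=
    Cfsg.Agent.S4441.result p M hM (by omega) P hP _ rfl
  have h3 : ∀ θ ∈ X, (θ : G → ℂ) = fun _ => 1 := fun θ hθ => by
    obtain ⟨h3, h4, -⟩ := h2 θ hθ
    refine (charKer_eq_top_iff θ.2).1 (top_le_iff.1 (hc.ge.trans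
      (commutator_le_charKer_of_deg_one (irr_isCharacter θ.2) (not_not.1 fun h6 => ?_))))
    have h7 : charDegree (θ : G → ℂ) ≤ p := hmax _ (mem_charDegrees θ.2)
    have h8 := h _ θ.2 h6
    have h9 := h8.two_le
    rcases h3 with e | e
    · have := Int.le_of_dvd (by omega) (e ▸ h4).symm.dvd
      omega
    · obtain ⟨c, hc⟩ := (e ▸ h4).symm.dvd
      have h10 : c = 1 := by
        have : 0 < c := by nlinarith
        nlinarith
      have := h8.eq_two_or_odd
      have := hp.out.eq_two_or_odd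
      subst h10
      omega
  have h4 : Nat.card X ≤ 1 := Finite.card_le_one_iff_subsingleton.2 ⟨fun a b =>
    Subtype.ext (Subtype.ext ((h3 _ a.2).trans (h3 _ b.2).symm))⟩
  have h6 := Subgroup.relIndex_eq_one.1 (le_antisymm (h1 ▸ h4)
    (Nat.pos_of_ne_zero Subgroup.index_ne_zero_of_finite))
  have h7 := MonoidHom.ker_transferSylow_isComplement' P h6
  rcases hs' _ (MonoidHom.normal_ker (MonoidHom.transferSylow P h6)) with e | e
  · have := h7.card_mul
    rw [e, Subgroup.card_bot, one_mul, hP] at this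
    have := isCyclic_of_prime_card this.symm
    exact hab fun a b => mul_comm' a b
  · have := h7.symm.index_eq_card
    rw [e, Subgroup.index_top, hP] at this
    omega

theorem isSolvable_of_prime_deg
    (h : ∀ χ, IsIrrCharacter G χ → charDegree χ ≠ 1 → (charDegree χ).Prime) :
    Group.IsSolvable G := isSolvable_of_prime_deg_aux _ G rfl h

theorem ncard_le_three_of_prime_deg
    (h : ∀ χ, IsIrrCharacter G χ → charDegree χ ≠ 1 → (charDegree χ).Prime) :
    (charDegrees G).ncard ≤ 3 := by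
  have := isSolvable_of_prime_deg h
  have h3 : ∀ a b : ℕ, (∀ χ, IsIrrCharacter G χ → charDegree χ ≠ 1 →
      charDegree χ = a ∨ charDegree χ = b) → (charDegrees G).ncard ≤ 3 := fun a b h =>
    (Set.ncard_le_ncard (t := {1, a, b}) (by
      rintro _ ⟨χ, rfl⟩; exact or_iff_not_imp_left.2 (h _ χ.2))).trans ((Set.ncard_insert_le _ _).trans
        (Nat.succ_le_succ (ncard_le_of_subset_pair fun _ h => h)))
  have hmul : ∀ η, IsIrrCharacter G η → ∀ a b, charDegree η = a * b → a ≠ 1 → b = 1 :=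
    fun η hη a b e ha => by
      by_cases h1 : charDegree η = 1
      · exact Nat.eq_one_of_mul_eq_one_left (e ▸ h1)
      · exact (Nat.prime_mul_iff.1 (e ▸ h η hη h1)).elim (·.2) fun h => absurd h.2 ha
  by_cases hc : commutator G ≤ ⊥
  · exact h3 1 1 fun χ hχ h1 => absurd (deg_eq_one_of_commutator_le hχ (hc.trans bot_le)) h1
  obtain ⟨K, hK, -⟩ := exists_maxNA inferInstance hc
  have := hK.normal
  rcases hK.cases_of_isSolvable with ⟨p, Z, τ, hA⟩ | ⟨p, N, hB⟩
  · refine h3 p p fun χ hχ h1 => Or.inl ((Nat.prime_dvd_prime_iff_eq hA.prime (h χ hχ h1)).1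
      (not_not.1 fun h2 => ?_)).symm
    obtain ⟨η, h4, h5⟩ := hA.exists_deg_mul_of_not_dvd hχ h2
    exact h1 (hmul η h4 _ _ h5 hA.ne_one)
  · have := hB.normal
    refine h3 N.index p fun χ hχ h1 => ?_
    obtain ⟨ψ, hψ, ho⟩ := exists_under hχ N
    obtain ⟨τ, hτ, -, hτd⟩ := hB.deg
    rcases hB.deg_or_dvd hψ with ⟨η, h4, h5⟩ | h4
    · have := ho.deg_dvd_mul hχ hψ
      rw [hmul η h4 _ _ h5 hB.one_lt.ne', mul_one] at this
      exact Or.inl ((Nat.prime_dvd_prime_iff_eq (h χ hχ h1)
        (hτd ▸ h τ hτ (hτd ▸ hB.one_lt.ne'))).1 this)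
    · exact Or.inr ((Nat.prime_dvd_prime_iff_eq hB.prime (h χ hχ h1)).1
        (h4.trans (ho.deg_dvd hχ hψ))).symm

end H87
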