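import Mathlib
import Cfsg.Agent.Lib.Deg.Cliff
import Cfsg.Agent.Lib.Deg.FS3
import Cfsg.Agent.Lib.Deg.Struct
import Cfsg.Agent.Lib.FGS.ClassSize
import Cfsg.Agent.Lib.Core.Frattini
import Cfsg.Agent.Lib.Core.Fitting

/-!
Groups with a unique irreducible character of degree divisible by `p`.
-/

set_option autoImplicit false

namespace H87

open Cfsg H6
open scoped ComplexConjugate commutatorElement

set_option linter.unusedSectionVars false

variable {G : Type*} [Group G] [Finite G] {p : ℕ}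

theorem commutator_le_of_unique (hp : p.Prime) (N : Subgroup G) [N.Normal]
    (hN : (Nat.card N).Coprime p) {k : ℕ} (hk : N.index = p ^ k) (hne : N ≠ ⊥)
    (hu : ∀ χ ψ, IsIrrCharacter G χ → IsIrrCharacter G ψ → p ∣ charDegree χ → p ∣ charDegree ψ →
      χ = ψ) : commutator G ≤ N := by
  by_contra hc
  obtain ⟨g, hg, hgN⟩ := SetLike.not_le_iff_exists.1 hc
  obtain ⟨β, hβ, hNβ, hgβ⟩ := exists_irr_ker_of_not_mem N hgN
  have hβp : p ∣ charDegree β := by
    have h1 := (deg_dvd_index_charKer hβ).trans (hk ▸ Subgroup.index_dvd_of_le hNβ)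
    obtain ⟨j, -, hj⟩ := (Nat.dvd_prime_pow hp).1 h1
    rcases j with - | j
    · exact absurd (commutator_le_charKer_of_deg_one (irr_isCharacter hβ) hj hg) hgβ
    · exact hj ▸ dvd_pow_self p j.succ_ne_zero
  obtain ⟨χ, hχ, hχN⟩ := exists_irr_not_le_charKer hne
  have hχp : ¬ p ∣ charDegree χ := fun h => hχN (hu χ β hχ hβ h hβp ▸ hNβ)
  have hr := isIrr_res_of_coprime (N := N) hχ
    (hk ▸ Nat.Coprime.pow_right _ ((Nat.Prime.coprime_iff_not_dvd hp).2 hχp).symm)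
  obtain ⟨h1, h2⟩ := exists_deg_eq_mul_of_res hχ hr hβ hNβ
  have h3 := hu _ β h1 hβ (h2 ▸ hβp.mul_right _) hβp
  refine hχN fun n hn => (mem_charKer (irr_isCharacter hχ)).2 ?_
  have h4 := congrFun h3 n
  have h5 := congrFun h3 1
  simp only [Pi.mul_apply, (mem_charKer (irr_isCharacter hβ)).1 (hNβ hn)] at h4 h5
  exact mul_left_cancel₀ (irr_one_ne_zero hβ) (h4.trans h5.symm)

theorem unique_of_card_eq_one {P : IrrCharacter G → Prop} (h : Nat.card {χ // P χ} = 1) :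
    ∃ χ, P χ ∧ ∀ ψ, P ψ → ψ = χ := by
  obtain ⟨h1, ⟨χ, hχ⟩⟩ := Nat.card_eq_one_iff_unique.1 h
  exact ⟨χ, hχ, fun ψ hψ => congrArg Subtype.val (h1.elim ⟨ψ, hψ⟩ ⟨χ, hχ⟩)⟩

theorem card_classes_not_dvd [Fact p.Prime] (P : Sylow p G)
    (h : Subgroup.normalizer ((P : Subgroup G) : Set G) ≤
      Subgroup.centralizer ((P : Subgroup G) : Set G)) :
    Nat.card {C : ConjClasses G // ¬ p ∣ Nat.card C.carrier} =
      Nat.card (ConjClasses (Subgroup.normalizer ((P : Subgroup G) : Set G))) := by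
  set N := Subgroup.normalizer ((P : Subgroup G) : Set G)
  refine (Nat.card_congr (Equiv.ofBijective (fun C : ConjClasses N =>
    (⟨ConjClasses.map N.subtype C, ?_⟩ : {C : ConjClasses G // ¬ p ∣ Nat.card C.carrier}))
    ⟨fun C D hCD => ?_, fun C => ?_⟩)).symm
  · obtain ⟨x, rfl⟩ := ConjClasses.mk_surjective C
    change ¬ p ∣ Nat.card (ConjClasses.mk (x : G)).carrier
    rw [H80.card_carrier_mk, H80.not_dvd_cs_iff]
    exact ⟨P, H80.le_Cx_iff.2 (h x.2)⟩
  · obtain ⟨x, rfl⟩ := ConjClasses.mk_surjective C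
    obtain ⟨y, rfl⟩ := ConjClasses.mk_surjective D
    have h1 : IsConj (x : G) y := ConjClasses.mk_eq_mk_iff_isConj.1 (congrArg Subtype.val hCD)
    obtain ⟨g, hg⟩ := isConj_iff.1 h1
    obtain ⟨n, hn, h2⟩ := P.conj_eq_normalizer_conj_of_mem_centralizer x g⁻¹ (h x.2)
      (by rw [inv_inv, hg]; exact h y.2)
    rw [inv_inv, hg] at h2
    exact ConjClasses.mk_eq_mk_iff_isConj.2 (isConj_iff.2 ⟨⟨n, hn⟩⁻¹, Subtype.ext (by
      simpa using h2.symm)⟩)
  · obtain ⟨C, hC⟩ := C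
    obtain ⟨x, rfl⟩ := ConjClasses.mk_surjective C
    rw [H80.card_carrier_mk] at hC
    obtain ⟨g, hg⟩ := H80.exists_conj_mem_centralizer_sylow hC P
    exact ⟨ConjClasses.mk ⟨_, Subgroup.centralizer_le_normalizer _ hg⟩, Subtype.ext
      (ConjClasses.mk_eq_mk_iff_isConj.2 (isConj_iff.2 ⟨g, rfl⟩).symm)⟩

theorem card_add_card_not {X : Type*} [Finite X] (P : X → Prop) :
    Nat.card {x // P x} + Nat.card {x // ¬ P x} = Nat.card X := by
  classical
  rw [← Nat.card_sum, Nat.card_congr (Equiv.sumCompl P)]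

end H87
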